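import Mathlib

/-!
# Arithmetic of a pair of subsets of a cyclic group

`fU`, `fV` are the indicator functions of subsets of `ZMod m`, with `fU` symmetric, and such that
the two-fold product in the dihedral group of the set they define is constant away from the
identity.  Computations in the group algebra of `ZMod m` restrict such pairs.
-/

namespace Cfsg.Agent.Lib.Dih.Arith

open Finset

/-- The group algebra of `ZMod m`. -/
abbrev Alg (m : ℕ) := AddMonoidAlgebra ℚ (ZMod m)

section finite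

theorem m8_false (fU fV : ZMod 8 → ℚ) (hU : ∀ i, fU i = 0 ∨ fU i = 1)
    (hV : ∀ i, fV i = 0 ∨ fV i = 1)
    (sym : ∀ i, fU (-i) = fU i) (per : ∀ t, fU (t + 4) = fU t) (hsum : ∑ i, fU i = 2)
    (half : ∀ t, ∑ i, fU i * fV (t + i) = 1)
    (e1 : ∑ i, (fU i * fU (1 - i) + fV i * fV (i + 1)) = 2) : False := by
  let a : Fin 8 → ℚ := fU
  let b : Fin 8 → ℚ := fV
  have hsum' : ∑ i, a i = 2 := hsum
  have half' : ∀ t : Fin 8, ∑ i, a i * b (t + i) = 1 := half
  have e1' : ∑ i, (a i * a (1 - i) + b i * b (i + 1)) = 2 := e1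
  have hU' : ∀ i : Fin 8, a i = 0 ∨ a i = 1 := hU
  have hV' : ∀ i : Fin 8, b i = 0 ∨ b i = 1 := hV
  have a40 : a 4 = a 0 := per 0
  have a51 : a 5 = a 1 := per 1
  have a62 : a 6 = a 2 := per 2
  have a73 : a 7 = a 3 := per 3
  have s1 : a 7 = a 1 := sym 1
  have s3 : a 5 = a 3 := sym 3
  simp only [Fin.sum_univ_eight] at hsum' half' e1'
  have h0 := half' 0
  have h1 := half' 1
  have h2 := half' 2
  have h3 := half' 3
  have h6 := half' 6
  have h7 := half' 7
  simp at h0 h1 h2 h3 h6 h7 e1' hsum'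
  have a3 : a 3 = a 1 := by linarith
  rw [a40, a51, a62, a73, a3] at hsum'
  rw [a40, a51, a62, a73, a3] at e1' h0 h1 h2 h3 h6 h7
  have hx : a 1 = 0 := by
    rcases hU' 1 with h | h
    · exact h
    · rcases hU' 0 with h' | h' <;> rcases hU' 2 with h'' | h'' <;> rw [h, h', h''] at hsum' <;>
        norm_num at hsum'
  rw [hx] at hsum' e1' h0 h1 h2 h3 h6 h7
  have hb : b 0 + b 4 = 1 ∧ b 1 + b 5 = 1 ∧ b 2 + b 6 = 1 ∧ b 3 + b 7 = 1 := by
    rcases hU' 0 with h' | h' <;> rcases hU' 2 with h'' | h'' <;> rw [h', h''] at hsum' <;>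
      norm_num at hsum'
    · rw [h', h''] at h6 h7 h0 h1
      refine ⟨by linarith, by linarith, by linarith, by linarith⟩
    · rw [h', h''] at h0 h1 h2 h3
      refine ⟨by linarith, by linarith, by linarith, by linarith⟩
  obtain ⟨b4, b5, b6, b7⟩ := hb
  have b4' : b 4 = 1 - b 0 := by linarith
  have b5' : b 5 = 1 - b 1 := by linarith
  have b6' : b 6 = 1 - b 2 := by linarith
  have b7' : b 7 = 1 - b 3 := by linarith
  rw [b4', b5', b6', b7'] at e1'
  rcases hU' 0 with h' | h' <;> rcases hU' 2 with h'' | h'' <;>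
    rcases hV' 0 with c0 | c0 <;> rcases hV' 1 with c1 | c1 <;>
    rcases hV' 2 with c2 | c2 <;> rcases hV' 3 with c3 | c3 <;>
    rw [h', h'', c0, c1, c2, c3] at e1' <;> norm_num at e1'

end finite

variable {m : ℕ} [NeZero m]

/-- Element with given coefficients. -/
noncomputable def toA (f : ZMod m → ℚ) : Alg m := ∑ i, AddMonoidAlgebra.single i (f i)

@[simp] theorem coeff_toA (f : ZMod m → ℚ) (t : ZMod m) : (toA f).coeff t = f t := by
  classical
  simp only [toA, AddMonoidAlgebra.coeff_sum, Finsupp.coe_finsetSum, Finset.sum_apply,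
    AddMonoidAlgebra.coeff_single, Finsupp.single_apply]
  simp

theorem coeff_mul' (X Y : Alg m) (t : ZMod m) :
    (X * Y).coeff t = ∑ i, X.coeff i * Y.coeff (t - i) := by
  rw [AddMonoidAlgebra.coeff_mul_apply_left, Finsupp.sum_fintype _ _ (fun _ => zero_mul _)]
  refine Finset.sum_congr rfl fun i _ => ?_
  rw [sub_eq_neg_add]

/-- Scalars. -/
noncomputable def sc (a : ℚ) : Alg m := algebraMap ℚ (Alg m) a

theorem coeff_sc_mul (a : ℚ) (X : Alg m) (t : ZMod m) : (sc a * X).coeff t = a * X.coeff t := by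
  rw [sc, ← Algebra.smul_def, AddMonoidAlgebra.coeff_smul_apply, smul_eq_mul]

theorem sc_mul (a b : ℚ) : (sc (a * b) : Alg m) = sc a * sc b := map_mul _ _ _
theorem sc_add (a b : ℚ) : (sc (a + b) : Alg m) = sc a + sc b := map_add _ _ _
theorem sc_sub (a b : ℚ) : (sc (a - b) : Alg m) = sc a - sc b := map_sub _ _ _
theorem sc_pow (a : ℚ) (n : ℕ) : (sc (a ^ n) : Alg m) = sc a ^ n := map_pow _ _ _
theorem sc_one : (sc 1 : Alg m) = 1 := map_one _

theorem coeff_one' (t : ZMod m) : (1 : Alg m).coeff t = if t = 0 then 1 else 0 := by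
  classical
  rw [AddMonoidAlgebra.one_def, AddMonoidAlgebra.coeff_single, Finsupp.single_apply]
  simp only [eq_comm]

theorem sum_neg' (f : ZMod m → ℚ) : ∑ i, f (-i) = ∑ i, f i :=
  Fintype.sum_equiv (Equiv.neg _) _ _ (fun _ => rfl)

theorem sum_sub_left' (f : ZMod m → ℚ) (t : ZMod m) : ∑ i, f (t - i) = ∑ i, f i :=
  Fintype.sum_equiv (Equiv.subLeft t) _ _ (fun _ => rfl)

theorem sum_add_right' (f : ZMod m → ℚ) (t : ZMod m) : ∑ i, f (i + t) = ∑ i, f i :=
  Fintype.sum_equiv (Equiv.addRight t) _ _ (fun _ => rfl)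

theorem sum_add_left' (f : ZMod m → ℚ) (t : ZMod m) : ∑ i, f (t + i) = ∑ i, f i :=
  Fintype.sum_equiv (Equiv.addLeft t) _ _ (fun _ => rfl)

/-- All-ones element. -/
noncomputable def allOne : Alg m := toA fun _ => 1

theorem toA_mul_allOne (f : ZMod m → ℚ) : toA f * allOne = sc (∑ i, f i) * (allOne : Alg m) := by
  ext t
  rw [coeff_mul', coeff_sc_mul]
  simp [allOne]

theorem allOne_mul_allOne : (allOne : Alg m) * allOne = sc (m : ℚ) * allOne := by
  have := toA_mul_allOne (m := m) fun _ => 1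
  simpa [allOne] using this

theorem sc_allOne_inj {a b : ℚ} (h : sc a * (allOne : Alg m) = sc b * allOne) : a = b := by
  have := congrArg (fun X : Alg m => X.coeff 0) h
  simpa [coeff_sc_mul, allOne] using this

/-- The hypotheses. -/
structure Cfg (fU fV : ZMod m → ℚ) (c : ℚ) : Prop where
  hU : ∀ i, fU i = 0 ∨ fU i = 1
  hV : ∀ i, fV i = 0 ∨ fV i = 1
  sym : ∀ i, fU (-i) = fU i
  e1 : ∀ t, t ≠ 0 → ∑ i, (fU i * fU (t - i) + fV i * fV (i + t)) = c
  e2 : ∀ t, ∑ i, (fU i * fV (t + i) + fV i * fU (t - i)) = c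

section Cfg

variable {fU fV : ZMod m → ℚ} {c : ℚ}

theorem sq_of_01 {f : ZMod m → ℚ} (h : ∀ i, f i = 0 ∨ f i = 1) (i : ZMod m) : f i * f i = f i := by
  rcases h i with h | h <;> rw [h] <;> norm_num

theorem Cfg.half (cfg : Cfg fU fV c) (t : ZMod m) : ∑ i, fU i * fV (t + i) = c / 2 := by
  have h1 : ∑ i, fV i * fU (t - i) = ∑ i, fU i * fV (t + i) := by
    symm
    refine Fintype.sum_equiv (Equiv.addLeft t) _ _ ?_
    intro i
    simp only [Equiv.coe_addLeft]
    rw [sub_add_cancel_left, cfg.sym, mul_comm]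
  have h2 := cfg.e2 t
  rw [Finset.sum_add_distrib, h1] at h2
  linarith

/-- Convolution of `fU` with itself is symmetric. -/
theorem Cfg.conv_sym (cfg : Cfg fU fV c) (t : ZMod m) :
    ∑ i, fU i * fU (t - i) = ∑ i, fU i * fU (-t - i) := by
  refine Fintype.sum_equiv (Equiv.neg _) _ _ ?_
  intro i
  simp only [Equiv.neg_apply]
  rw [cfg.sym]
  congr 1
  rw [← cfg.sym (t - i)]
  congr 1
  ring

/-- Mirror of `fV`. -/
noncomputable def mirror (f : ZMod m → ℚ) : ZMod m → ℚ := fun i => f (-i)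

theorem Cfg.e1_alg (cfg : Cfg fU fV c) :
    toA fU * toA fU + toA fV * toA (mirror fV) =
      sc (∑ i, fU i + ∑ i, fV i - c) + sc c * (allOne : Alg m) := by
  ext t
  rw [AddMonoidAlgebra.coeff_add, AddMonoidAlgebra.coeff_add, Finsupp.add_apply, Finsupp.add_apply,
    coeff_mul', coeff_mul', coeff_sc_mul]
  simp only [coeff_toA, allOne, mirror, mul_one]
  have hsc : (sc (∑ i, fU i + ∑ i, fV i - c) : Alg m).coeff t =
      (∑ i, fU i + ∑ i, fV i - c) * if t = 0 then 1 else 0 := by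
    have := coeff_sc_mul (∑ i, fU i + ∑ i, fV i - c) (1 : Alg m) t
    rwa [mul_one, coeff_one'] at this
  rw [hsc]
  by_cases ht : t = 0
  · subst ht
    simp only [zero_sub, neg_neg, if_true, mul_one]
    have h1 : ∑ i, fU i * fU (-i) = ∑ i, fU i :=
      Finset.sum_congr rfl fun i _ => by rw [cfg.sym, sq_of_01 cfg.hU]
    have h2 : ∑ i, fV i * fV i = ∑ i, fV i :=
      Finset.sum_congr rfl fun i _ => sq_of_01 cfg.hV i
    rw [h1, h2]
    ring
  · rw [if_neg ht, mul_zero, zero_add]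
    have h := cfg.e1 (-t) (neg_ne_zero.mpr ht)
    rw [Finset.sum_add_distrib] at h
    rw [cfg.conv_sym t, ← h]
    congr 1
    refine Finset.sum_congr rfl fun i _ => ?_
    congr 2
    ring

theorem Cfg.e2_alg (cfg : Cfg fU fV c) :
    toA fU * toA fV = sc (c / 2) * (allOne : Alg m) := by
  ext t
  rw [coeff_mul', coeff_sc_mul]
  simp only [coeff_toA, allOne, mul_one]
  rw [← cfg.half t]
  refine Fintype.sum_equiv (Equiv.neg _) _ _ ?_
  intro i
  simp only [Equiv.neg_apply]
  rw [cfg.sym, sub_eq_add_neg]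

theorem Cfg.e2'_alg (cfg : Cfg fU fV c) :
    toA fU * toA (mirror fV) = sc (c / 2) * (allOne : Alg m) := by
  ext t
  rw [coeff_mul', coeff_sc_mul]
  simp only [coeff_toA, allOne, mul_one, mirror]
  rw [← cfg.half (-t)]
  refine Finset.sum_congr rfl fun i _ => ?_
  rw [neg_sub, sub_eq_neg_add]

/-- The two scalar relations. -/
theorem Cfg.scalars (cfg : Cfg fU fV c) :
    (m : ℚ) * (c / 2) = (∑ i, fU i) * ∑ i, fV i ∧
      ∑ i, fU i + ∑ i, fV i - c = (∑ i, fU i - ∑ i, fV i) ^ 2 := by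
  set u := ∑ i, fU i with hu
  set v := ∑ i, fV i with hv
  have hCU : (allOne : Alg m) * toA fU = sc u * allOne := by
    rw [mul_comm, toA_mul_allOne]
  have hCV : (allOne : Alg m) * toA fV = sc v * allOne := by
    rw [mul_comm, toA_mul_allOne]
  have hCW : (allOne : Alg m) * toA (mirror fV) = sc v * allOne := by
    rw [mul_comm, toA_mul_allOne]
    simp only [mirror]
    rw [sum_neg']
  have hCC := allOne_mul_allOne (m := m)
  have e1 : toA fU * toA fU + toA fV * toA (mirror fV) = sc (u + v - c) + sc c * (allOne : Alg m) :=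
    cfg.e1_alg
  have e2 := cfg.e2_alg
  have h1 : (m : ℚ) * (c / 2) = u * v := by
    apply sc_allOne_inj (m := m)
    rw [sc_mul, sc_mul]
    linear_combination (-1 : Alg m) * allOne * e2 + toA fV * hCU + sc u * hCV - sc (c / 2) * hCC
  have h2 : u ^ 2 + v ^ 2 = (u + v - c) + c * m := by
    apply sc_allOne_inj (m := m)
    have h3 : (sc (u ^ 2 + v ^ 2) : Alg m) = sc u ^ 2 + sc v ^ 2 := by
      rw [sc_add, sc_pow, sc_pow]
    have h4 : (sc (u + v - c + c * m) : Alg m) = sc (u + v - c) + sc c * sc (m : ℚ) := by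
      rw [sc_add, sc_mul]
    rw [h3, h4]
    linear_combination allOne * e1 - (toA fU + sc u) * hCU - toA (mirror fV) * hCV - sc v * hCW +
      sc c * hCC
  refine ⟨h1, ?_⟩
  linear_combination (-1 : ℚ) * h2 + (-2 : ℚ) * h1

end Cfg

section Abstract

variable {R : Type*} [CommRing R]

/-- The key identity for the "spectral" bound. -/
theorem h_sq {U V W C a b v c₂ n c : R}
    (e1 : U * U + V * W = n + c * C) (e2 : U * V = c₂ * C) (hCU : C * U = b * C)
    (hCV : C * V = v * C) (hCC : C * C = a * C) (hac : a * c₂ = b * v) :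
    ((a * U - b * C) * (a * U - b * C)) * ((a * U - b * C) * (a * U - b * C)) =
      a ^ 2 * n * ((a * U - b * C) * (a * U - b * C)) := by
  set T := a * U - b * C with hT
  have hTV : T * V = 0 := by
    rw [hT]
    linear_combination a * e2 - b * hCV + C * hac
  have hTC : T * C = 0 := by
    rw [hT]
    linear_combination a * hCU - b * hCC
  have hTT : T * T = a * T * U := by
    nth_rw 2 [hT]
    linear_combination (-b) * hTC
  have hTUU : T * U * U = n * T := by
    linear_combination T * e1 - W * hTV + c * hTC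
  linear_combination (T * T + a * T * U) * hTT + a ^ 2 * T * hTUU

/-- The identity with a subgroup. -/
theorem l_id {U V W C L u v d c₂ n c : R}
    (e1 : U * U + V * W = n + c * C) (e2 : U * V = c₂ * C) (hCW : C * W = v * C)
    (hLU : L * U = u * L) (hLC : L * C = d * C) (hc : c = 2 * c₂) :
    u * (u ^ 2 - n) * L = c₂ * d * (2 * u - v) * C := by
  subst hc
  linear_combination u * L * e1 - (u * U + u ^ 2 - V * W) * hLU - L * W * e2 - c₂ * L * hCW
    + (2 * c₂ * u - c₂ * v) * hLC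

end Abstract

section Num

/-- From the sum-of-squares inequality. -/
theorem num_A1 {p m u n h₀ : ℚ} (hm : 0 < m) (hu : 0 < u) (hum : u < m)
    (hh : h₀ = m * u * (m - u))
    (hC : (p * h₀) ^ 2 ≤ (m - p) * (m ^ 2 * n * h₀ - p * h₀ ^ 2)) :
    p * u * (m - u) ≤ (m - p) * n := by
  have hmu : 0 < m - u := by linarith
  have h₀pos : 0 < h₀ := by rw [hh]; positivity
  have hK : 0 < h₀ * m * m := by positivity
  refine le_of_mul_le_mul_right ?_ hK
  have e1 : (p * u * (m - u)) * (h₀ * m * m) = p * m * h₀ ^ 2 := by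
    rw [hh]; ring
  have e2 : ((m - p) * n) * (h₀ * m * m) = (m - p) * (m ^ 2 * n * h₀) := by ring
  rw [e1, e2]
  have e3 : (m - p) * (m ^ 2 * n * h₀ - p * h₀ ^ 2) =
      (m - p) * (m ^ 2 * n * h₀) - (m - p) * (p * h₀ ^ 2) := by ring
  have e4 : (p * h₀) ^ 2 + (m - p) * (p * h₀ ^ 2) = p * m * h₀ ^ 2 := by ring
  linarith

/-- The final arithmetic for odd `p`. -/
theorem num_A2 {p m u s : ℚ} (hp : 3 ≤ p) (hu : 1 ≤ u) (hum : u ≤ m - 1) (hs : p ≤ |s|)
    (h1 : 2 * u * (m - u) = m * s ^ 2 + s * (m - 2 * u))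
    (h3 : p * u * (m - u) ≤ (m - p) * s ^ 2) : False := by
  have ha : 0 < |s| := by linarith
  have hss : s ^ 2 = |s| * |s| := by rw [abs_mul_abs_self]; ring
  have hb : - (|s| * (m - 2)) ≤ s * (m - 2 * u) := by
    have hm2 : 0 ≤ m - 2 := by linarith
    have h5 : |m - 2 * u| ≤ m - 2 := by
      rw [abs_le]
      constructor <;> linarith
    have h6 : |s * (m - 2 * u)| ≤ |s| * (m - 2) := by
      rw [abs_mul]
      exact mul_le_mul_of_nonneg_left h5 ha.le
    exact (abs_le.mp h6).1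
  -- combine
  have h7 : s ^ 2 * ((p - 2) * m + 2 * p) + p * (s * (m - 2 * u)) ≤ 0 := by
    have := mul_le_mul_of_nonneg_left h3 (by norm_num : (0 : ℚ) ≤ 2)
    have e : 2 * (p * u * (m - u)) = p * (2 * u * (m - u)) := by ring
    rw [e, h1] at this
    linarith
  have hm2 : 0 ≤ m - 2 := by linarith
  have hpa : p * |s| ≤ s ^ 2 := by
    rw [hss]
    exact mul_le_mul_of_nonneg_right hs ha.le
  have hF : m + 2 * p ≤ (p - 2) * m + 2 * p := by nlinarith
  have hF0 : 0 ≤ m + 2 * p := by linarith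
  have h8 : (p * |s|) * (m + 2 * p) ≤ s ^ 2 * ((p - 2) * m + 2 * p) := by
    calc (p * |s|) * (m + 2 * p) ≤ s ^ 2 * (m + 2 * p) := mul_le_mul_of_nonneg_right hpa hF0
      _ ≤ s ^ 2 * ((p - 2) * m + 2 * p) := mul_le_mul_of_nonneg_left hF (sq_nonneg s)
  have h9 : p * (- (|s| * (m - 2))) ≤ p * (s * (m - 2 * u)) :=
    mul_le_mul_of_nonneg_left hb (by linarith)
  have h10 : 0 < p * |s| := by positivity
  nlinarith

end Num

section CaseA

variable {fU fV : ZMod m → ℚ} {c : ℚ}

/-- Contradiction for an odd prime. -/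
theorem Cfg.caseA (cfg : Cfg fU fV c) {p : ℕ} (hp3 : 3 ≤ p) {Ω : Finset (ZMod m)}
    (hΩ : Ω.card = p) (hper : ∀ ω ∈ Ω, ∀ t, fU (t + ω) = fU t) {u₀ v₀ : ℕ}
    (hu₀ : ∑ i, fU i = u₀) (hv₀ : ∑ i, fV i = v₀) (hpu : p ∣ u₀) (hpv : p ∣ u₀ + v₀)
    (hupos : 0 < u₀) (hum : u₀ < m) : False := by
  classical
  set u := ∑ i, fU i with hu
  set v := ∑ i, fV i with hv
  set n := u + v - c with hn
  have hmpos : (0 : ℚ) < m := by exact_mod_cast (NeZero.pos m)
  obtain ⟨hmc, hns⟩ := cfg.scalars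
  rw [← hu, ← hv] at hmc hns
  let fT : ZMod m → ℚ := fun i => m * fU i - u
  have hT : toA fT = sc (m : ℚ) * toA fU - sc u * (allOne : Alg m) := by
    ext t
    rw [AddMonoidAlgebra.coeff_sub, Finsupp.sub_apply, coeff_sc_mul, coeff_sc_mul]
    simp [fT, allOne]
  have hkey : (toA fT * toA fT) * (toA fT * toA fT) =
      sc (m : ℚ) ^ 2 * sc n * (toA fT * toA fT) := by
    rw [hT]
    refine h_sq (v := sc v) cfg.e1_alg cfg.e2_alg ?_ ?_ allOne_mul_allOne ?_
    · rw [mul_comm, toA_mul_allOne]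
    · rw [mul_comm, toA_mul_allOne]
    · rw [← sc_mul, ← sc_mul, hmc]
  let fh : ZMod m → ℚ := fun t => (toA fT * toA fT).coeff t
  have hfh : ∀ t, fh t = ∑ i, fT i * fT (t - i) := by
    intro t
    simp only [fh]
    rw [coeff_mul']
    simp
  have hTsym : ∀ i, fT (-i) = fT i := fun i => by simp only [fT, cfg.sym]
  have hhsym : ∀ t, fh (-t) = fh t := by
    intro t
    rw [hfh, hfh]
    refine Fintype.sum_equiv (Equiv.neg _) _ _ ?_
    intro i
    simp only [Equiv.neg_apply]
    rw [hTsym i, ← hTsym (t - -i)]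
    congr 2
    ring
  have hh0 : fh 0 = m * u * (m - u) := by
    rw [hfh]
    have : ∀ i, fT i * fT (0 - i) = m ^ 2 * fU i - 2 * m * u * fU i + u ^ 2 := by
      intro i
      rw [zero_sub, hTsym]
      simp only [fT]
      have := sq_of_01 cfg.hU i
      linear_combination (m : ℚ) ^ 2 * this
    simp only [this]
    rw [Finset.sum_add_distrib, Finset.sum_sub_distrib, Finset.sum_const, ← Finset.mul_sum,
      ← Finset.mul_sum, ← hu, Finset.card_univ, ZMod.card, nsmul_eq_mul]
    ring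
  have hper' : ∀ ω ∈ Ω, fh ω = fh 0 := by
    intro ω hω
    rw [hfh, hfh]
    refine Finset.sum_congr rfl fun i _ => ?_
    congr 1
    simp only [fT]
    congr 2
    have := hper ω hω (-i)
    rw [zero_sub, ← this]
    congr 1
    ring
  have hTC : toA fT * (allOne : Alg m) = 0 := by
    rw [toA_mul_allOne]
    have : ∑ i, fT i = 0 := by
      simp only [fT]
      rw [Finset.sum_sub_distrib, Finset.sum_const, ← Finset.mul_sum, ← hu, Finset.card_univ,
        ZMod.card, nsmul_eq_mul]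
      ring
    rw [this]
    simp [sc]
  have hsum0 : ∑ t, fh t = 0 := by
    have : (toA fT * toA fT * (allOne : Alg m)).coeff 0 = 0 := by
      rw [mul_assoc, hTC]
      simp
    rw [coeff_mul'] at this
    simpa [allOne] using this
  have hsq0 : ∑ t, fh t ^ 2 = m ^ 2 * n * fh 0 := by
    have h := congrArg (fun X : Alg m => X.coeff 0) hkey
    rw [coeff_mul', ← sc_pow, ← sc_mul, coeff_sc_mul] at h
    rw [← h]
    refine Finset.sum_congr rfl fun t _ => ?_
    change fh t ^ 2 = fh t * fh (0 - t)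
    rw [zero_sub, hhsym]
    ring
  -- split along `Ω`
  have hu₀' : u = u₀ := hu₀
  have hv₀' : v = v₀ := hv₀
  have hsplit1 : ∑ t ∈ univ \ Ω, fh t = - (p * fh 0) := by
    have h := Finset.sum_sdiff (Finset.subset_univ Ω) (f := fh)
    rw [hsum0, Finset.sum_congr rfl hper', Finset.sum_const, hΩ, nsmul_eq_mul] at h
    linarith
  have hsplit2 : ∑ t ∈ univ \ Ω, fh t ^ 2 = m ^ 2 * n * fh 0 - p * fh 0 ^ 2 := by
    have h := Finset.sum_sdiff (Finset.subset_univ Ω) (f := fun t => fh t ^ 2)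
    have hΩsum : ∑ x ∈ Ω, fh x ^ 2 = ∑ _x ∈ Ω, fh 0 ^ 2 :=
      Finset.sum_congr rfl (fun ω hω => by rw [hper' ω hω])
    rw [hsq0, hΩsum, Finset.sum_const, hΩ, nsmul_eq_mul] at h
    linarith
  have hcard : (((univ \ Ω : Finset (ZMod m)).card : ℕ) : ℚ) = m - p := by
    rw [Finset.card_sdiff_of_subset (Finset.subset_univ Ω), Finset.card_univ, ZMod.card, hΩ]
    have : p ≤ m := by
      have := Finset.card_le_univ Ω
      rwa [hΩ, ZMod.card] at this
    push_cast [this]
    ring
  have hcs := sq_sum_le_card_mul_sum_sq (s := univ \ Ω) (f := fh)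
  rw [hsplit1, hsplit2, hcard, neg_sq] at hcs
  have hupos' : (0 : ℚ) < u := by rw [hu₀']; exact_mod_cast hupos
  have hum' : u < m := by rw [hu₀']; exact_mod_cast hum
  have h3 := num_A1 hmpos hupos' hum' hh0 hcs
  have hns' : n = (u - v) ^ 2 := hns
  rw [hns'] at h3
  -- `s ≠ 0`, `p ∣ s`
  set s := u - v with hs
  have hnum1 : 2 * u * (m - u) = m * s ^ 2 + s * (m - 2 * u) := by
    have hc : c = u + v - s ^ 2 := by
      have : u + v - c = s ^ 2 := hns
      linarith
    rw [hc] at hmc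
    have hv' : v = u - s := by rw [hs]; ring
    rw [hv'] at hmc
    linear_combination (2 : ℚ) * hmc
  have hs0 : s ≠ 0 := by
    intro h0
    rw [h0] at hnum1
    have : 2 * u * (m - u) = 0 := by rw [hnum1]; ring
    have h1 : 0 < 2 * u * (m - u) := by
      have : 0 < m - u := by linarith
      positivity
    linarith
  have hsabs : (p : ℚ) ≤ |s| := by
    have hdvd : (p : ℤ) ∣ (u₀ : ℤ) - v₀ := by
      have h1 : (p : ℤ) ∣ (u₀ : ℤ) := by exact_mod_cast hpu
      have h2 : (p : ℤ) ∣ (u₀ : ℤ) + v₀ := by exact_mod_cast hpv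
      have : (u₀ : ℤ) - v₀ = 2 * u₀ - (u₀ + v₀) := by ring
      rw [this]
      exact dvd_sub (Dvd.dvd.mul_left h1 2) h2
    have hne : (u₀ : ℤ) - v₀ ≠ 0 := by
      intro h
      apply hs0
      rw [hs, hu₀', hv₀']
      have : ((u₀ : ℤ) - v₀ : ℤ) = 0 := h
      exact_mod_cast this
    have hle := Int.le_of_dvd (abs_pos.mpr hne) ((dvd_abs _ _).mpr hdvd)
    have hss : s = (((u₀ : ℤ) - v₀ : ℤ) : ℚ) := by
      rw [hs, hu₀', hv₀']
      push_cast
      ring
    rw [hss]
    have : ((p : ℤ) : ℚ) ≤ ((|(u₀ : ℤ) - v₀| : ℤ) : ℚ) := by exact_mod_cast hle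
    simpa using this
  have hu1 : (1 : ℚ) ≤ u := by rw [hu₀']; exact_mod_cast hupos
  have hum1 : u ≤ m - 1 := by
    rw [hu₀']
    have : ((u₀ + 1 : ℕ) : ℚ) ≤ m := by exact_mod_cast hum
    push_cast at this
    linarith
  have hp3' : (3 : ℚ) ≤ p := by exact_mod_cast hp3
  exact num_A2 hp3' hu1 hum1 hsabs hnum1 h3

end CaseA

section CaseB

variable {fU fV : ZMod m → ℚ} {c : ℚ}

/-- Passing to complements. -/
theorem Cfg.compl (cfg : Cfg fU fV c) :
    Cfg (fun i => 1 - fU i) (fun i => 1 - fV i) (2 * m - 2 * (∑ i, fU i) - 2 * (∑ i, fV i) + c) where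
  hU i := by rcases cfg.hU i with h | h <;> rw [h] <;> norm_num
  hV i := by rcases cfg.hV i with h | h <;> rw [h] <;> norm_num
  sym i := by simp only [cfg.sym]
  e1 t ht := by
    have h := cfg.e1 t ht
    have e : ∀ i, (1 - fU i) * (1 - fU (t - i)) + (1 - fV i) * (1 - fV (i + t)) =
        2 - fU i - fU (t - i) - fV i - fV (i + t) + (fU i * fU (t - i) + fV i * fV (i + t)) := by
      intro i; ring
    simp only [e]
    rw [Finset.sum_add_distrib, h, Finset.sum_sub_distrib, Finset.sum_sub_distrib,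
      Finset.sum_sub_distrib, Finset.sum_sub_distrib, sum_sub_left' fU t, sum_add_right' fV t,
      Finset.sum_const, Finset.card_univ, ZMod.card, nsmul_eq_mul]
    ring
  e2 t := by
    have h := cfg.e2 t
    have e : ∀ i, (1 - fU i) * (1 - fV (t + i)) + (1 - fV i) * (1 - fU (t - i)) =
        2 - fU i - fV (t + i) - fV i - fU (t - i) + (fU i * fV (t + i) + fV i * fU (t - i)) := by
      intro i; ring
    simp only [e]
    rw [Finset.sum_add_distrib, h, Finset.sum_sub_distrib, Finset.sum_sub_distrib,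
      Finset.sum_sub_distrib, Finset.sum_sub_distrib, sum_sub_left' fU t, sum_add_left' fV t,
      Finset.sum_const, Finset.card_univ, ZMod.card, nsmul_eq_mul]
    ring

/-- Contradiction when `fU` is supported on a proper subgroup and is periodic under an
involution. -/
theorem Cfg.caseB (cfg : Cfg fU fV c) (L : AddSubgroup (ZMod m)) (hL : L ≠ ⊤)
    (hsupp : ∀ i, fU i ≠ 0 → i ∈ L) {u₀ v₀ : ℕ}
    (hu₀ : ∑ i, fU i = u₀) (hv₀ : ∑ i, fV i = v₀) (hupos : 0 < u₀) (hvpos : 0 < v₀)
    (h2u : 2 ∣ u₀) {z : ZMod m} (hz0 : z ≠ 0) (h2z : z + z = 0)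
    (hper : ∀ t, fU (t + z) = fU t) : False := by
  classical
  set u := ∑ i, fU i with hu
  set v := ∑ i, fV i with hv
  set n := u + v - c with hn
  have hmpos : (0 : ℚ) < m := by exact_mod_cast (NeZero.pos m)
  obtain ⟨hmc, hns⟩ := cfg.scalars
  rw [← hu, ← hv] at hmc hns
  have hns' : n = (u - v) ^ 2 := hns
  have hupos' : (0 : ℚ) < u := by rw [hu₀]; exact_mod_cast hupos
  have hvpos' : (0 : ℚ) < v := by rw [hv₀]; exact_mod_cast hvpos
  let fL : ZMod m → ℚ := fun i => if i ∈ L then 1 else 0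
  set d := ∑ i, fL i with hd
  have hLU : toA fL * toA fU = sc u * toA fL := by
    rw [mul_comm]
    ext t
    rw [coeff_mul', coeff_sc_mul]
    simp only [coeff_toA]
    rw [hu, Finset.sum_mul]
    refine Finset.sum_congr rfl fun i _ => ?_
    by_cases hi : fU i = 0
    · rw [hi]; ring
    · have hiL := hsupp i hi
      congr 1
      simp only [fL]
      have : t - i ∈ L ↔ t ∈ L := by
        constructor
        · intro h
          have := L.add_mem h hiL
          simpa using this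
        · intro h
          exact L.sub_mem h hiL
      simp only [this]
  have hLC : toA fL * (allOne : Alg m) = sc d * allOne := toA_mul_allOne fL
  have hCW : (allOne : Alg m) * toA (mirror fV) = sc v * allOne := by
    rw [mul_comm, toA_mul_allOne]
    simp only [mirror]
    rw [sum_neg']
  have hc2 : (sc c : Alg m) = 2 * sc (c / 2) := by
    have : (2 : Alg m) = sc 2 := (map_ofNat (algebraMap ℚ (Alg m)) 2).symm
    rw [this, ← sc_mul]
    congr 1
    ring
  have hid := l_id (n := sc n) cfg.e1_alg cfg.e2_alg hCW hLU hLC hc2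
  have hid' : sc (u * (u ^ 2 - n)) * toA fL = sc (c / 2 * d * (2 * u - v)) * (allOne : Alg m) := by
    have e1 : (sc (u * (u ^ 2 - n)) : Alg m) = sc u * (sc u ^ 2 - sc n) := by
      simp only [sc, map_mul, map_sub, map_pow]
    have e2 : (sc (c / 2 * d * (2 * u - v)) : Alg m) = sc (c / 2) * sc d * (2 * sc u - sc v) := by
      simp only [sc, map_mul, map_sub, map_ofNat]
    rw [e1, e2]
    exact hid
  obtain ⟨x, hx⟩ : ∃ x, x ∉ L := by
    by_contra hno
    push Not at hno
    exact hL ((AddSubgroup.eq_top_iff' L).mpr hno)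
  have hB : c / 2 * d * (2 * u - v) = 0 := by
    have := congrArg (fun X : Alg m => X.coeff x) hid'
    simp only [coeff_sc_mul, coeff_toA, allOne, fL, if_neg hx, mul_zero, mul_one] at this
    exact this.symm
  have hA : u * (u ^ 2 - n) = 0 := by
    have := congrArg (fun X : Alg m => X.coeff 0) hid'
    simp only [coeff_sc_mul, coeff_toA, allOne, fL, if_pos L.zero_mem, mul_one] at this
    rw [this, hB]
  have hA' : u ^ 2 = n := by
    have := (mul_eq_zero.mp hA).resolve_left hupos'.ne'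
    linarith
  have hv2 : v = 2 * u := by
    have h1 : v * (v - 2 * u) = 0 := by
      rw [hns'] at hA'
      linear_combination (-1 : ℚ) * hA'
    have := (mul_eq_zero.mp h1).resolve_left hvpos'.ne'
    linarith
  have hc' : c = 3 * u - u ^ 2 := by
    have : u + v - c = u ^ 2 := hA'.symm
    rw [hv2] at this
    linarith
  have h4 : (m : ℚ) * (3 - u) = 4 * u := by
    rw [hc', hv2] at hmc
    have h5 : u * ((m : ℚ) * (3 - u) - 4 * u) = 0 := by
      linear_combination (2 : ℚ) * hmc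
    have := (mul_eq_zero.mp h5).resolve_left hupos'.ne'
    linarith
  have hu3 : u₀ < 3 := by
    by_contra hge
    push Not at hge
    have h6 : (3 : ℚ) ≤ u := by rw [hu₀]; exact_mod_cast hge
    have h7 : (m : ℚ) * (3 - u) ≤ 0 := mul_nonpos_of_nonneg_of_nonpos hmpos.le (by linarith)
    linarith
  have hu2 : u₀ = 2 := by omega
  have hm8 : m = 8 := by
    rw [hu₀, hu2] at h4
    have : (m : ℚ) = 8 := by
      push_cast at h4
      linarith
    exact_mod_cast this
  subst hm8
  have hz4 : z = 4 := (by decide : ∀ z : ZMod 8, z ≠ 0 → z + z = 0 → z = 4) z hz0 h2z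
  subst hz4
  have hu2' : u = 2 := by rw [hu₀, hu2]; norm_num
  have hc2' : c = 2 := by rw [hc', hu2']; norm_num
  refine m8_false fU fV cfg.hU cfg.hV cfg.sym hper ?_ ?_ ?_
  · exact hu2'
  · intro t
    have := cfg.half t
    rw [this, hc2']
    norm_num
  · have := cfg.e1 1 (by decide)
    rw [this, hc2']

end CaseB

end Cfsg.Agent.Lib.Dih.Arith
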