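import Mathlib

/-!
# Abstract Schur rings over a finite group

An equivalence relation `r` on a finite group `D`, given by its classes, such that the number of
factorisations `x = a * b` with `a ∈ S`, `b ∈ T` (for saturated `S`, `T`) depends only on the class
of `x`.  The elements of the group algebra constant on classes are closed under products.
-/

namespace Cfsg.Agent.Lib.Dih.SR

open Finset

variable {D : Type*} [Group D] [Fintype D]

/-- Saturated sets: unions of classes. -/
def Sat (r : D → D → Prop) (S : Set D) : Prop := ∀ x y, r x y → (x ∈ S ↔ y ∈ S)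

open Classical in
/-- Number of `a ∈ S` with `a⁻¹ * x ∈ T`. -/
noncomputable def cnt (S T : Set D) (x : D) : ℕ :=
  (univ.filter fun a => a ∈ S ∧ a⁻¹ * x ∈ T).card

/-- The axioms of a Schur ring, in terms of the relation. -/
structure IsSR (r : D → D → Prop) : Prop where
  equiv : Equivalence r
  one : ∀ x, r 1 x → x = 1
  inv : ∀ x y, r x y → r x⁻¹ y⁻¹
  cnt_inv : ∀ S T, Sat r S → Sat r T → ∀ x y, r x y → cnt S T x = cnt S T y

/-- Primitivity in the two forms we use. -/
structure Prim (r : D → D → Prop) : Prop where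
  closure : ∀ T : Set D, Sat r T → Subgroup.closure T = ⊥ ∨ Subgroup.closure T = ⊤
  stable : ∀ T : Set D, Sat r T → ∀ s : D, s ≠ 1 → (∀ x, x ∈ T ↔ s * x ∈ T) →
    T = ∅ ∨ T = Set.univ

/-- All non-identity elements are in one class. -/
def Triv (r : D → D → Prop) : Prop := ∀ x y, x ≠ 1 → y ≠ 1 → r x y

theorem Sat.mono {r r' : D → D → Prop} (h : ∀ x y, r x y → r' x y) {S : Set D} (hS : Sat r' S) :
    Sat r S := fun x y hxy => hS x y (h x y hxy)

theorem Prim.mono {r r' : D → D → Prop} (h : ∀ x y, r x y → r' x y) (hp : Prim r) : Prim r' where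
  closure T hT := hp.closure T (Sat.mono h hT)
  stable T hT s hs hst := hp.stable T (Sat.mono h hT) s hs hst

/-- Invariant functions. -/
def Inv {α : Type*} (r : D → D → Prop) (f : D → α) : Prop := ∀ x y, r x y → f x = f y

theorem Inv.sat {α : Type*} {r : D → D → Prop} {f : D → α} (hf : Inv r f) (v : α) :
    Sat r {x | f x = v} := by
  intro x y hxy
  simp only [Set.mem_ofPred_eq]
  rw [hf x y hxy]

section Alg

variable {k : Type*} [CommRing k]

theorem coeff_mul_sum (X Y : MonoidAlgebra k D) (x : D) :
    (X * Y).coeff x = ∑ a, X.coeff a * Y.coeff (a⁻¹ * x) := by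
  rw [MonoidAlgebra.coeff_mul_apply_left, Finsupp.sum_fintype _ _ (fun _ => zero_mul _)]

open Classical in
/-- Expansion of a convolution along the fibres of the two factors. -/
theorem sum_eq_sum_cnt (f g : D → k) (x : D) :
    ∑ a, f a * g (a⁻¹ * x) =
      ∑ p ∈ (univ.image f) ×ˢ (univ.image g),
        p.1 * p.2 * ((cnt {b | f b = p.1} {b | g b = p.2} x : ℕ) : k) := by
  have hm : ∀ a ∈ (univ : Finset D), (f a, g (a⁻¹ * x)) ∈ (univ.image f) ×ˢ (univ.image g) := by
    intro a _
    simp only [mem_product, mem_image, mem_univ, true_and]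
    exact ⟨⟨a, rfl⟩, ⟨_, rfl⟩⟩
  rw [← Finset.sum_fiberwise_of_maps_to hm]
  refine Finset.sum_congr rfl ?_
  rintro ⟨v, w⟩ _
  have : ∀ a ∈ univ.filter (fun a => (f a, g (a⁻¹ * x)) = (v, w)), f a * g (a⁻¹ * x) = v * w := by
    intro a ha
    rw [mem_filter, Prod.mk.injEq] at ha
    rw [ha.2.1, ha.2.2]
  rw [Finset.sum_congr rfl this, Finset.sum_const, nsmul_eq_mul, mul_comm]
  simp only [cnt]
  congr 3
  ext a
  simp [Prod.ext_iff]

/-- Elements of the group algebra constant on classes. -/
abbrev InvA (r : D → D → Prop) (X : MonoidAlgebra k D) : Prop := Inv r fun x => X.coeff x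

theorem InvA.mul {r : D → D → Prop} (hr : IsSR r) {X Y : MonoidAlgebra k D}
    (hX : InvA r X) (hY : InvA r Y) : InvA r (X * Y) := by
  classical
  intro x y hxy
  simp only
  rw [coeff_mul_sum, coeff_mul_sum, sum_eq_sum_cnt, sum_eq_sum_cnt]
  refine Finset.sum_congr rfl ?_
  rintro ⟨v, w⟩ _
  simp only
  rw [hr.cnt_inv _ _ (Inv.sat hX v) (Inv.sat hY w) x y hxy]

theorem InvA.one {r : D → D → Prop} (hr : IsSR r) : InvA r (1 : MonoidAlgebra k D) := by
  classical
  intro x y hxy
  simp only [MonoidAlgebra.one_def, MonoidAlgebra.coeff_single, Finsupp.single_apply]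
  have : (1 : D) = x ↔ 1 = y := by
    constructor
    · rintro rfl
      exact (hr.one y hxy).symm
    · rintro rfl
      exact (hr.one x (hr.equiv.symm hxy)).symm
  simp only [this]

theorem InvA.pow {r : D → D → Prop} (hr : IsSR r) {X : MonoidAlgebra k D}
    (hX : InvA r X) (n : ℕ) : InvA r (X ^ n) := by
  induction n with
  | zero => simpa using InvA.one hr
  | succ n ih =>
    rw [pow_succ]
    exact InvA.mul hr ih hX

theorem InvA.sub {r : D → D → Prop} {X Y : MonoidAlgebra k D}
    (hX : InvA r X) (hY : InvA r Y) : InvA r (X - Y) := by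
  intro x y hxy
  have h1 := hX x y hxy
  have h2 := hY x y hxy
  simp only at h1 h2
  simp only [MonoidAlgebra.coeff_sub, Finsupp.sub_apply]
  rw [h1, h2]

open Classical in
/-- Indicator element of a set. -/
noncomputable def ind (k : Type*) [CommRing k] (S : Set D) : MonoidAlgebra k D :=
  ∑ x, MonoidAlgebra.single x (if x ∈ S then (1 : k) else 0)

open Classical in
theorem coeff_ind (S : Set D) (x : D) :
    (ind k S).coeff x = if x ∈ S then (1 : k) else 0 := by
  simp only [ind, MonoidAlgebra.coeff_sum, Finsupp.coe_finsetSum, Finset.sum_apply,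
    MonoidAlgebra.coeff_single, Finsupp.single_apply]
  simp

theorem ind_inv {r : D → D → Prop} {S : Set D} (hS : Sat r S) : InvA r (ind k S) := by
  classical
  intro x y hxy
  simp only [coeff_ind]
  have := hS x y hxy
  simp only [this]

open Classical in
theorem coeff_ind_mul (S T : Set D) (x : D) :
    (ind k S * ind k T).coeff x = ((cnt S T x : ℕ) : k) := by
  rw [coeff_mul_sum]
  simp only [coeff_ind, cnt]
  rw [Finset.card_filter, Nat.cast_sum]
  refine Finset.sum_congr rfl fun a _ => ?_
  by_cases h1 : a ∈ S <;> by_cases h2 : a⁻¹ * x ∈ T <;> simp [h1, h2]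

/-- The augmentation. -/
noncomputable def aug (X : MonoidAlgebra k D) : k := ∑ x, X.coeff x

theorem aug_mul (X Y : MonoidAlgebra k D) : aug (X * Y) = aug X * aug Y := by
  simp only [aug, coeff_mul_sum]
  rw [Finset.sum_comm, Finset.sum_mul]
  refine Finset.sum_congr rfl fun a _ => ?_
  rw [← Finset.mul_sum]
  congr 1
  exact Fintype.sum_equiv (Equiv.mulLeft a⁻¹) _ _ (fun x => rfl)

theorem aug_one : aug (1 : MonoidAlgebra k D) = 1 := by
  classical
  simp [aug, MonoidAlgebra.one_def, MonoidAlgebra.coeff_single, Finsupp.single_apply]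

theorem aug_pow (X : MonoidAlgebra k D) (n : ℕ) : aug (X ^ n) = aug X ^ n := by
  induction n with
  | zero => simp [aug_one]
  | succ n ih => rw [pow_succ, aug_mul, ih, pow_succ]

open Classical in
theorem aug_ind (S : Set D) : aug (ind k S) = ((univ.filter (· ∈ S)).card : k) := by
  simp only [aug, coeff_ind]
  rw [Finset.card_filter, Nat.cast_sum]
  refine Finset.sum_congr rfl fun a _ => ?_
  by_cases h1 : a ∈ S <;> simp [h1]

end Alg

section Coarse

variable {r gen : D → D → Prop}

/-- The equivalence relation generated by `r` and extra pairs. -/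
def Coarse (r gen : D → D → Prop) : D → D → Prop :=
  Relation.EqvGen fun x y => r x y ∨ gen x y

omit [Fintype D] in
theorem le_coarse {x y : D} (h : r x y) : Coarse r gen x y :=
  Relation.EqvGen.rel _ _ (Or.inl h)

omit [Fintype D] in
theorem gen_coarse {x y : D} (h : gen x y) : Coarse r gen x y :=
  Relation.EqvGen.rel _ _ (Or.inr h)

omit [Fintype D] in
theorem Inv.coarse {α : Type*} {f : D → α} (hf : Inv r f) (hg : ∀ x y, gen x y → f x = f y) :
    Inv (Coarse r gen) f := by
  intro x y h
  induction h with
  | rel x y h =>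
    rcases h with h | h
    · exact hf x y h
    · exact hg x y h
  | refl x => rfl
  | symm x y _ ih => exact ih.symm
  | trans x y z _ _ ih1 ih2 => exact ih1.trans ih2

theorem IsSR.coarse (hr : IsSR r) (h1 : ∀ x y, gen x y → (x = 1 ↔ y = 1))
    (h2 : ∀ x y, gen x y → Coarse r gen x⁻¹ y⁻¹)
    (h3 : ∀ S T, Sat (Coarse r gen) S → Sat (Coarse r gen) T → ∀ x y, gen x y →
      cnt S T x = cnt S T y) : IsSR (Coarse r gen) where
  equiv := Relation.EqvGen.is_equivalence _
  one := by
    intro x hx
    have hf : Inv (Coarse r gen) (fun x => x = 1) := by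
      refine Inv.coarse ?_ ?_
      · intro x y hxy
        simp only [eq_iff_iff]
        constructor
        · rintro rfl
          exact hr.one y hxy
        · rintro rfl
          exact hr.one x (hr.equiv.symm hxy)
      · intro x y hxy
        simp only [eq_iff_iff]
        exact h1 x y hxy
    have := hf 1 x hx
    simpa using this.symm
  inv := by
    intro x y h
    induction h with
    | rel x y h =>
      rcases h with h | h
      · exact le_coarse (hr.inv x y h)
      · exact h2 x y h
    | refl x => exact Relation.EqvGen.refl _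
    | symm x y _ ih => exact Relation.EqvGen.symm _ _ ih
    | trans x y z _ _ ih1 ih2 => exact Relation.EqvGen.trans _ _ _ ih1 ih2
  cnt_inv := by
    intro S T hS hT
    refine Inv.coarse (f := cnt S T) ?_ (h3 S T hS hT)
    exact hr.cnt_inv S T (Sat.mono (fun _ _ h => le_coarse h) hS) (Sat.mono (fun _ _ h => le_coarse h) hT)

open Classical in
/-- Induction along coarsenings: enough to coarsen any non-trivial relation. -/
theorem triv_of_step
    (step : ∀ r : D → D → Prop, IsSR r → Prim r → ¬Triv r →
      ∃ r' : D → D → Prop, IsSR r' ∧ (∀ x y, r x y → r' x y) ∧ (∃ x y, r' x y ∧ ¬ r x y) ∧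
        ¬Triv r') :
    ∀ r : D → D → Prop, IsSR r → Prim r → Triv r := by
  have key : ∀ (N : ℕ) (r : D → D → Prop),
      (univ.filter fun q : D × D => ¬ r q.1 q.2).card = N → IsSR r → Prim r → Triv r := by
    intro N
    induction N using Nat.strong_induction_on with
    | _ N ih =>
      intro r hN hr hp
      by_contra hn
      obtain ⟨r', hr', hle, ⟨x, y, hxy, hnxy⟩, hn'⟩ := step r hr hp hn
      refine hn' (ih _ ?_ r' rfl hr' (hp.mono hle))
      rw [← hN]
      refine Finset.card_lt_card ⟨?_, ?_⟩
      · intro q hq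
        rw [mem_filter] at hq ⊢
        exact ⟨hq.1, fun h => hq.2 (hle _ _ h)⟩
      · intro hsub
        have : (x, y) ∈ univ.filter fun q : D × D => ¬ r q.1 q.2 := by
          rw [mem_filter]
          exact ⟨mem_univ _, hnxy⟩
        have := hsub this
        rw [mem_filter] at this
        exact this.2 hxy
  intro r hr hp
  exact key _ r rfl hr hp

end Coarse

end Cfsg.Agent.Lib.Dih.SR
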