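import Mathlib
import Cfsg.Agent.Lib.Dih.SR

/-!
# Dihedral Schur rings: first facts

For a Schur ring over `DihedralGroup m` which is primitive: classes are inverse-closed, each
non-identity rotation is related to a reflection and conversely, the invariant part of the
group algebra is commutative and there is a Frobenius formula on rotations.
-/

namespace Cfsg.Agent.Lib.Dih.Basic

open Finset DihedralGroup Cfsg.Agent.Lib.Dih.SR

variable {m : ℕ} [NeZero m]

theorem sum_D {α : Type*} [AddCommMonoid α] (f : DihedralGroup m → α) :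
    ∑ x, f x = ∑ i, f (r i) + ∑ i, f (sr i) := by
  have := Fintype.sum_equiv (equivSum (n := m)) f (fun s => f (equivSum.symm s))
    (fun x => by rcases x with i | i <;> rfl)
  rw [this, Fintype.sum_sum_type]
  rfl

variable {ρ : DihedralGroup m → DihedralGroup m → Prop}

theorem refl_of_rot (hρ : IsSR ρ) (hp : Prim ρ) {i : ZMod m} (hi : i ≠ 0) :
    ∃ j, ρ (r i) (sr j) := by
  by_contra hno
  push Not at hno
  let T : Set (DihedralGroup m) := {x | ρ (r i) x}
  have hT : Sat ρ T := fun x y hxy =>
    ⟨fun h => hρ.equiv.trans h hxy, fun h => hρ.equiv.trans h (hρ.equiv.symm hxy)⟩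
  have hrot : ∀ x ∈ Subgroup.closure T, ∃ j, x = r j := by
    intro x hx
    induction hx using Subgroup.closure_induction with
    | mem x hx =>
      rcases x with j | j
      · exact ⟨j, rfl⟩
      · exact absurd hx (hno j)
    | one => exact ⟨0, rfl⟩
    | mul x y _ _ hx hy =>
      obtain ⟨a, rfl⟩ := hx
      obtain ⟨b, rfl⟩ := hy
      exact ⟨a + b, rfl⟩
    | inv x _ hx =>
      obtain ⟨a, rfl⟩ := hx
      exact ⟨-a, rfl⟩
  rcases hp.closure T hT with h | h
  · have : r i ∈ Subgroup.closure T := Subgroup.subset_closure (hρ.equiv.refl _)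
    rw [h, Subgroup.mem_bot] at this
    exact hi (r.inj this)
  · obtain ⟨j, hj⟩ := hrot (sr 0) (by rw [h]; trivial)
    exact absurd hj (by simp)

theorem sym (hρ : IsSR ρ) (hp : Prim ρ) (x : DihedralGroup m) : ρ x x⁻¹ := by
  rcases x with i | i
  · by_cases hi : i = 0
    · subst hi
      simpa using hρ.equiv.refl _
    · obtain ⟨j, hj⟩ := refl_of_rot hρ hp hi
      have := hρ.inv _ _ hj
      simp only [inv_sr] at this
      exact hρ.equiv.trans hj (hρ.equiv.symm this)
  · simpa using hρ.equiv.refl _

theorem rot_of_refl (hm : 2 ≤ m) (hρ : IsSR ρ) (hp : Prim ρ) (j : ZMod m) :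
    ∃ i, i ≠ 0 ∧ ρ (sr j) (r i) := by
  by_contra hno
  push Not at hno
  have hno' : ∀ i, ¬ ρ (sr j) (r i) := by
    intro i
    by_cases hi : i = 0
    · subst hi
      intro h
      have := hρ.one _ (hρ.equiv.symm h)
      exact absurd this (by simp [← r_zero])
    · exact hno i hi
  let T : Set (DihedralGroup m) := {x | ρ (sr j) x}
  have hT : Sat ρ T := fun x y hxy =>
    ⟨fun h => hρ.equiv.trans h hxy, fun h => hρ.equiv.trans h (hρ.equiv.symm hxy)⟩
  have hTr : ∀ i, r i ∉ T := hno'
  by_cases hk : ∃ k, k ≠ j ∧ ρ (sr j) (sr k)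
  · obtain ⟨k, hkj, hjk⟩ := hk
    have hne : k - j ≠ 0 := sub_ne_zero.mpr hkj
    obtain ⟨l, hl⟩ := refl_of_rot hρ hp hne
    have h1 : cnt T T (r (k - j)) = cnt T T (sr l) := hρ.cnt_inv T T hT hT _ _ hl
    have h2 : 0 < cnt T T (r (k - j)) := by
      classical
      refine Finset.card_pos.mpr ⟨sr j, ?_⟩
      rw [mem_filter]
      refine ⟨mem_univ _, hρ.equiv.refl _, ?_⟩
      simpa [T] using hjk
    rw [h1] at h2
    classical
    obtain ⟨a, ha⟩ := Finset.card_pos.mp h2
    rw [mem_filter] at ha
    rcases a with a | a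
    · exact hTr a ha.2.1
    · have := ha.2.2
      simp only [inv_sr, sr_mul_sr] at this
      exact hTr _ this
  · push Not at hk
    have hsub : ∀ x ∈ Subgroup.closure T, x = 1 ∨ x = sr j := by
      intro x hx
      induction hx using Subgroup.closure_induction with
      | mem x hx =>
        rcases x with a | a
        · exact absurd hx (hTr a)
        · right
          by_cases ha : a = j
          · rw [ha]
          · exact absurd hx (hk a ha)
      | one => exact Or.inl rfl
      | mul x y _ _ hx hy =>
        rcases hx with rfl | rfl <;> rcases hy with rfl | rfl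
        · left; simp
        · right; simp
        · right; simp
        · left; simp [← r_zero]
      | inv x _ hx =>
        rcases hx with rfl | rfl
        · left; simp
        · right; simp
    rcases hp.closure T hT with h | h
    · have : sr j ∈ Subgroup.closure T := Subgroup.subset_closure (hρ.equiv.refl _)
      rw [h, Subgroup.mem_bot] at this
      exact absurd this (by simp [← r_zero])
    · have hmem : (r 1 : DihedralGroup m) ∈ Subgroup.closure T := by rw [h]; trivial
      rcases hsub _ hmem with h1 | h1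
      · have h2 : (1 : ZMod m) = 0 := r.inj h1
        haveI : Fact (1 < m) := ⟨hm⟩
        exact one_ne_zero h2
      · exact absurd h1 (by simp)

section Alg

variable {k : Type*} [CommRing k]

theorem eq_zero_of_rot (hm : 2 ≤ m) (hρ : IsSR ρ) (hp : Prim ρ) {X : MonoidAlgebra k (DihedralGroup m)}
    (hX : InvA ρ X) (h0 : ∀ i, X.coeff (r i) = 0) : X = 0 := by
  ext x
  rcases x with i | j
  · simp [h0 i]
  · obtain ⟨i, _, hi⟩ := rot_of_refl hm hρ hp j
    have := hX _ _ hi
    simp only at this
    simp [this, h0 i]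

/-- Symmetric elements multiply anti-commutatively with inversion. -/
theorem conv_anti {X Y : MonoidAlgebra k (DihedralGroup m)} (hX : ∀ x, X.coeff x⁻¹ = X.coeff x)
    (hY : ∀ x, Y.coeff x⁻¹ = Y.coeff x) (x : DihedralGroup m) :
    (Y * X).coeff x = (X * Y).coeff x⁻¹ := by
  rw [coeff_mul_sum, coeff_mul_sum]
  refine Fintype.sum_equiv (Equiv.mulLeft x⁻¹) _ _ ?_
  intro a
  simp only [Equiv.coe_mulLeft]
  rw [mul_comm]
  congr 1
  · rw [← hX]
    simp
  · rw [← hY]
    simp

theorem InvA.symm_coeff (hρ : IsSR ρ) (hp : Prim ρ) {X : MonoidAlgebra k (DihedralGroup m)}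
    (hX : InvA ρ X) (x : DihedralGroup m) : X.coeff x⁻¹ = X.coeff x :=
  (hX _ _ (sym hρ hp x)).symm

theorem InvA.comm (hρ : IsSR ρ) (hp : Prim ρ) {X Y : MonoidAlgebra k (DihedralGroup m)}
    (hX : InvA ρ X) (hY : InvA ρ Y) : X * Y = Y * X := by
  ext x
  have h1 := conv_anti (InvA.symm_coeff hρ hp hX) (InvA.symm_coeff hρ hp hY) x
  have h2 := InvA.symm_coeff hρ hp (InvA.mul hρ hX hY) x
  rw [h1, h2]

/-- Rotation part. -/
noncomputable def rotPart (X : MonoidAlgebra k (DihedralGroup m)) : MonoidAlgebra k (DihedralGroup m) :=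
  ∑ i, MonoidAlgebra.single (r i) (X.coeff (r i))

/-- Reflection part. -/
noncomputable def refPart (X : MonoidAlgebra k (DihedralGroup m)) : MonoidAlgebra k (DihedralGroup m) :=
  ∑ i, MonoidAlgebra.single (sr i) (X.coeff (sr i))

@[simp] theorem coeff_rotPart_r (X : MonoidAlgebra k (DihedralGroup m)) (y : ZMod m) :
    (rotPart X).coeff (r y) = X.coeff (r y) := by
  classical
  simp only [rotPart, MonoidAlgebra.coeff_sum, Finsupp.coe_finsetSum, Finset.sum_apply,
    MonoidAlgebra.coeff_single, Finsupp.single_apply, r.injEq]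
  simp

@[simp] theorem coeff_rotPart_sr (X : MonoidAlgebra k (DihedralGroup m)) (y : ZMod m) :
    (rotPart X).coeff (sr y) = 0 := by
  classical
  simp [rotPart, MonoidAlgebra.coeff_sum, Finsupp.coe_finsetSum, Finset.sum_apply,
    MonoidAlgebra.coeff_single, Finsupp.single_apply]

@[simp] theorem coeff_refPart_sr (X : MonoidAlgebra k (DihedralGroup m)) (y : ZMod m) :
    (refPart X).coeff (sr y) = X.coeff (sr y) := by
  classical
  simp only [refPart, MonoidAlgebra.coeff_sum, Finsupp.coe_finsetSum, Finset.sum_apply,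
    MonoidAlgebra.coeff_single, Finsupp.single_apply, sr.injEq]
  simp

@[simp] theorem coeff_refPart_r (X : MonoidAlgebra k (DihedralGroup m)) (y : ZMod m) :
    (refPart X).coeff (r y) = 0 := by
  classical
  simp [refPart, MonoidAlgebra.coeff_sum, Finsupp.coe_finsetSum, Finset.sum_apply,
    MonoidAlgebra.coeff_single, Finsupp.single_apply]

theorem eq_rot_add_ref (X : MonoidAlgebra k (DihedralGroup m)) : X = rotPart X + refPart X := by
  ext x
  rcases x with i | i <;> simp

/-- Supported on rotations. -/
def EvenE (Z : MonoidAlgebra k (DihedralGroup m)) : Prop := ∀ i, Z.coeff (sr i) = 0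

/-- Supported on reflections. -/
def OddE (Z : MonoidAlgebra k (DihedralGroup m)) : Prop := ∀ i, Z.coeff (r i) = 0

theorem OddE.mul_odd {Z W : MonoidAlgebra k (DihedralGroup m)} (hZ : OddE Z) (hW : OddE W) :
    EvenE (Z * W) := by
  intro y
  rw [coeff_mul_sum, sum_D]
  simp [hZ _, hW _]

theorem EvenE.mul_odd {Z W : MonoidAlgebra k (DihedralGroup m)} (hZ : EvenE Z) (hW : OddE W) :
    OddE (Z * W) := by
  intro y
  rw [coeff_mul_sum, sum_D]
  simp [hZ _, hW _]

theorem OddE.mul_even {Z W : MonoidAlgebra k (DihedralGroup m)} (hZ : OddE Z) (hW : EvenE W) :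
    OddE (Z * W) := by
  intro y
  rw [coeff_mul_sum, sum_D]
  simp [hZ _, hW _]

theorem EvenE.one : EvenE (1 : MonoidAlgebra k (DihedralGroup m)) := by
  classical
  intro y
  rw [MonoidAlgebra.one_def, MonoidAlgebra.coeff_single, Finsupp.single_apply, if_neg]
  intro (h : r 0 = sr y)
  cases h

theorem OddE.pow {Z : MonoidAlgebra k (DihedralGroup m)} (hZ : OddE Z) (n : ℕ) :
    (Even n → EvenE (Z ^ n)) ∧ (Odd n → OddE (Z ^ n)) := by
  induction n with
  | zero => exact ⟨fun _ => by simpa using EvenE.one, fun h => by simp at h⟩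
  | succ n ih =>
    rw [pow_succ]
    constructor
    · intro h
      have : Odd n := by
        rcases Nat.even_or_odd n with h' | h'
        · exact absurd h (by simpa [Nat.even_add_one] using h')
        · exact h'
      exact OddE.mul_odd (ih.2 this) hZ
    · intro h
      have : Even n := by
        rcases Nat.even_or_odd n with h' | h'
        · exact h'
        · exact absurd h (by simpa [Nat.odd_add_one] using h')
      exact EvenE.mul_odd (ih.1 this) hZ

theorem sum_pow_char_of_pairwise_commute {A ι : Type*} [Ring A] (p : ℕ) [Fact p.Prime] [CharP A p]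
    (s : Finset ι) (f : ι → A) (hc : ∀ i ∈ s, ∀ j ∈ s, Commute (f i) (f j)) :
    (∑ i ∈ s, f i) ^ p = ∑ i ∈ s, f i ^ p := by
  classical
  induction s using Finset.induction_on with
  | empty => simp [zero_pow (Fact.out : p.Prime).ne_zero]
  | insert a s ha ih =>
    rw [Finset.sum_insert ha, Finset.sum_insert ha]
    have hcomm : Commute (f a) (∑ i ∈ s, f i) :=
      Commute.sum_right _ _ _ fun i hi =>
        hc a (mem_insert_self _ _) i (mem_insert_of_mem hi)
    rw [add_pow_char_of_commute p hcomm,
      ih fun i hi j hj => hc i (mem_insert_of_mem hi) j (mem_insert_of_mem hj)]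

end Alg

section Frob

variable {p : ℕ} [Fact p.Prime]

/-- The Frobenius formula on rotations. -/
theorem frob (hρ : IsSR ρ) (hp : Prim ρ) (hodd : Odd p)
    {X : MonoidAlgebra (ZMod p) (DihedralGroup m)} (hX : InvA ρ X) (y : ZMod m) :
    (X ^ p).coeff (r y) = ∑ t ∈ univ.filter (fun t : ZMod m => t * (p : ZMod m) = y), X.coeff (r t) := by
  classical
  have : CharP (MonoidAlgebra (ZMod p) (DihedralGroup m)) p :=
    charP_of_injective_ringHom (f := MonoidAlgebra.singleOneRingHom)
      (fun a b hab => by
        have := congrArg (fun z => MonoidAlgebra.coeff z 1) hab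
        simpa [MonoidAlgebra.singleOneRingHom] using this) p
  have hs := InvA.symm_coeff hρ hp hX
  have hCs : ∀ x, (rotPart X).coeff x⁻¹ = (rotPart X).coeff x := by
    intro x
    rcases x with i | i
    · simpa using hs (r i)
    · simp
  have hBs : ∀ x, (refPart X).coeff x⁻¹ = (refPart X).coeff x := by
    intro x
    rcases x with i | i
    · simp
    · simp
  have hCe : EvenE (rotPart X) := fun i => by simp
  have hBo : OddE (refPart X) := fun i => by simp
  have hcomm : Commute (rotPart X) (refPart X) := by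
    show rotPart X * refPart X = refPart X * rotPart X
    ext x
    rw [conv_anti hCs hBs x]
    rcases x with i | i
    · have h1 := EvenE.mul_odd hCe hBo (-i)
      have h2 := EvenE.mul_odd hCe hBo i
      simp only [inv_r]
      rw [h1, h2]
    · simp
  have hsplit : X ^ p = rotPart X ^ p + refPart X ^ p := by
    conv_lhs => rw [eq_rot_add_ref X]
    exact add_pow_char_of_commute p hcomm
  have hCp : rotPart X ^ p = ∑ i, MonoidAlgebra.single (r (i * (p : ZMod m))) (X.coeff (r i)) := by
    simp only [rotPart]
    rw [sum_pow_char_of_pairwise_commute p]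
    · refine Finset.sum_congr rfl fun i _ => ?_
      rw [MonoidAlgebra.single_pow, r_pow, ZMod.pow_card]
    · intro i _ j _
      show MonoidAlgebra.single _ _ * MonoidAlgebra.single _ _ = MonoidAlgebra.single _ _ * MonoidAlgebra.single _ _
      rw [MonoidAlgebra.single_mul_single, MonoidAlgebra.single_mul_single, r_mul_r, r_mul_r, add_comm,
        mul_comm]
  rw [hsplit, MonoidAlgebra.coeff_add, Finsupp.add_apply, (OddE.pow hBo p).2 hodd y, add_zero, hCp]
  simp only [MonoidAlgebra.coeff_sum, Finsupp.coe_finsetSum, Finset.sum_apply,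
    MonoidAlgebra.coeff_single, Finsupp.single_apply, r.injEq]
  rw [Finset.sum_filter]

/-- Frobenius at a prime invertible modulo `m`. -/
theorem frob_unit (hρ : IsSR ρ) (hp : Prim ρ) (hodd : Odd p) {w : ZMod m}
    (hw : (p : ZMod m) * w = 1)
    {X : MonoidAlgebra (ZMod p) (DihedralGroup m)} (hX : InvA ρ X) (y : ZMod m) :
    (X ^ p).coeff (r y) = X.coeff (r (y * w)) := by
  classical
  rw [frob hρ hp hodd hX]
  have : univ.filter (fun t : ZMod m => t * (p : ZMod m) = y) = {y * w} := by
    ext t
    simp only [mem_filter, mem_univ, true_and, mem_singleton]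
    constructor
    · rintro rfl
      rw [mul_assoc, hw, mul_one]
    · rintro rfl
      rw [mul_assoc, mul_comm w, hw, mul_one]
  rw [this, Finset.sum_singleton]

end Frob

end Cfsg.Agent.Lib.Dih.Basic
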