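import Mathlib
import Cfsg.Agent.Lib.Dih.Basic

/-!
# Dihedral Schur rings: rationality

Multiplier theorem on rotations, the coarsening obtained by identifying `r ((k : ZMod m) * i)` with `r i`, and
its non-triviality.
-/

namespace Cfsg.Agent.Lib.Dih.Rat

open Finset DihedralGroup Cfsg.Agent.Lib.Dih.SR Cfsg.Agent.Lib.Dih.Basic

variable {m : ℕ} [NeZero m] {ρ : DihedralGroup m → DihedralGroup m → Prop}

theorem exists_prime (k : (ZMod m)ˣ) (n : ℕ) : ∃ q, n < q ∧ q.Prime ∧ (q : ZMod m) = k :=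
  Nat.forall_exists_prime_gt_and_eq_mod k.isUnit n

theorem odd_of_gt {q : ℕ} (hq : q.Prime) (h : 2 < q) : Odd q :=
  hq.odd_of_ne_two h.ne'

/-- The class of a point, which is saturated. -/
theorem sat_class (hρ : IsSR ρ) (x : DihedralGroup m) : Sat ρ {y | ρ x y} := fun _ _ hxy =>
  ⟨fun h => hρ.equiv.trans h hxy, fun h => hρ.equiv.trans h (hρ.equiv.symm hxy)⟩

/-- The multiplier theorem. -/
theorem rat_rel (hρ : IsSR ρ) (hp : Prim ρ) (k : (ZMod m)ˣ) {i j : ZMod m}
    (h : ρ (r i) (r j)) : ρ (r ((k : ZMod m) * i)) (r ((k : ZMod m) * j)) := by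
  classical
  obtain ⟨q, hq2, hq, hqk⟩ := exists_prime k⁻¹ 2
  haveI : Fact q.Prime := ⟨hq⟩
  let T : Set (DihedralGroup m) := {y | ρ (r ((k : ZMod m) * i)) y}
  have hX : InvA ρ (ind (ZMod q) T) := ind_inv (sat_class hρ _)
  have hw : (q : ZMod m) * (k : ZMod m) = 1 := by rw [hqk]; simp
  have h1 := frob_unit hρ hp (odd_of_gt hq hq2) hw hX i
  have h2 := frob_unit hρ hp (odd_of_gt hq hq2) hw hX j
  have h3 : (ind (ZMod q) T ^ q).coeff (r i) = (ind (ZMod q) T ^ q).coeff (r j) :=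
    InvA.pow hρ hX q _ _ h
  rw [h1, h2, coeff_ind, coeff_ind, if_pos (by simpa [T, mul_comm] using hρ.equiv.refl _)] at h3
  by_contra hno
  rw [if_neg (by simpa [T, mul_comm] using hno)] at h3
  exact one_ne_zero h3

/-- Generating pairs of the rational coarsening. -/
def RatGen (x y : DihedralGroup m) : Prop := ∃ (k : (ZMod m)ˣ) (i : ZMod m), x = r ((k : ZMod m) * i) ∧ y = r i

/-- `S` is rational. -/
theorem rat_of_sat {S : Set (DihedralGroup m)} (hS : Sat (Coarse ρ RatGen) S) (k : (ZMod m)ˣ)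
    (i : ZMod m) : r ((k : ZMod m) * i) ∈ S ↔ r i ∈ S :=
  hS _ _ (gen_coarse ⟨k, i, rfl, rfl⟩)

theorem sat_of_sat {S : Set (DihedralGroup m)} (hS : Sat (Coarse ρ RatGen) S) : Sat ρ S :=
  Sat.mono (fun _ _ h => le_coarse h) hS

/-- Rational elements are fixed by Frobenius. -/
theorem pow_eq_self (hm : 2 ≤ m) (hρ : IsSR ρ) (hp : Prim ρ) {q : ℕ} [Fact q.Prime] (hq : Odd q)
    (k : (ZMod m)ˣ) (hk : (q : ZMod m) = k) {S : Set (DihedralGroup m)}
    (hS : Sat (Coarse ρ RatGen) S) : ind (ZMod q) S ^ q = ind (ZMod q) S := by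
  classical
  have hX : InvA ρ (ind (ZMod q) S) := ind_inv (sat_of_sat hS)
  have hw : (q : ZMod m) * ((k⁻¹ : (ZMod m)ˣ) : ZMod m) = 1 := by rw [hk]; simp
  rw [← sub_eq_zero]
  refine eq_zero_of_rot hm hρ hp (InvA.sub (InvA.pow hρ hX q) hX) ?_
  intro y
  simp only [MonoidAlgebra.coeff_sub, Finsupp.sub_apply]
  rw [frob_unit hρ hp hq hw hX, sub_eq_zero, coeff_ind, coeff_ind]
  have := rat_of_sat hS k⁻¹ y
  rw [mul_comm] at this
  simp only [this]

theorem cnt_le (S T : Set (DihedralGroup m)) (x : DihedralGroup m) : cnt S T x ≤ 2 * m := by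
  classical
  calc cnt S T x ≤ Fintype.card (DihedralGroup m) := by
        simp only [cnt]
        convert Finset.card_le_univ _
    _ = 2 * m := DihedralGroup.card

theorem cnt_rat (hm : 2 ≤ m) (hρ : IsSR ρ) (hp : Prim ρ) {S T : Set (DihedralGroup m)}
    (hS : Sat (Coarse ρ RatGen) S) (hT : Sat (Coarse ρ RatGen) T) (k : (ZMod m)ˣ) (i : ZMod m) :
    cnt S T (r ((k : ZMod m) * i)) = cnt S T (r i) := by
  classical
  obtain ⟨q, hq2, hq, hqk⟩ := exists_prime k (2 * m + 2)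
  haveI : Fact q.Prime := ⟨hq⟩
  have hodd : Odd q := odd_of_gt hq (by omega)
  have hX : InvA ρ (ind (ZMod q) S) := ind_inv (sat_of_sat hS)
  have hY : InvA ρ (ind (ZMod q) T) := ind_inv (sat_of_sat hT)
  have hZ : (ind (ZMod q) S * ind (ZMod q) T) ^ q = ind (ZMod q) S * ind (ZMod q) T := by
    have hc : Commute (ind (ZMod q) S) (ind (ZMod q) T) := InvA.comm hρ hp hX hY
    rw [hc.mul_pow, pow_eq_self hm hρ hp hodd k hqk hS, pow_eq_self hm hρ hp hodd k hqk hT]
  have hw : (q : ZMod m) * ((k⁻¹ : (ZMod m)ˣ) : ZMod m) = 1 := by rw [hqk]; simp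
  have h1 := frob_unit hρ hp hodd hw (InvA.mul hρ hX hY) (k * i)
  rw [hZ, coeff_ind_mul] at h1
  have h2 : (k : ZMod m) * i * ((k⁻¹ : (ZMod m)ˣ) : ZMod m) = i := by
    rw [mul_comm (k : ZMod m), mul_assoc]
    simp
  rw [h2, coeff_ind_mul] at h1
  rw [ZMod.natCast_eq_natCast_iff'] at h1
  have h3 := cnt_le S T (r ((k : ZMod m) * i))
  have h4 := cnt_le S T (r i)
  rwa [Nat.mod_eq_of_lt (by omega), Nat.mod_eq_of_lt (by omega)] at h1

/-- The rational coarsening is a Schur ring. -/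
theorem isSR_rat (hm : 2 ≤ m) (hρ : IsSR ρ) (hp : Prim ρ) : IsSR (Coarse ρ RatGen) := by
  refine hρ.coarse ?_ ?_ ?_
  · rintro x y ⟨k, i, rfl, rfl⟩
    constructor
    · intro h
      have : (k : ZMod m) * i = 0 := r.inj h
      rw [Units.mul_right_eq_zero] at this
      rw [this]
      rfl
    · intro h
      have : i = 0 := r.inj h
      rw [this, mul_zero]
      rfl
  · rintro x y ⟨k, i, rfl, rfl⟩
    refine gen_coarse ⟨k, -i, ?_, rfl⟩
    simp
  · rintro S T hS hT x y ⟨k, i, rfl, rfl⟩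
    exact cnt_rat hm hρ hp hS hT k i

/-- Number of rotations in the class of `x`. -/
noncomputable def uu (ρ : DihedralGroup m → DihedralGroup m → Prop) (x : DihedralGroup m) : ℕ := by
  classical exact (univ.filter fun t : ZMod m => ρ x (r t)).card

/-- Number of reflections in the class of `x`. -/
noncomputable def vv (ρ : DihedralGroup m → DihedralGroup m → Prop) (x : DihedralGroup m) : ℕ := by
  classical exact (univ.filter fun t : ZMod m => ρ x (sr t)).card

/-- Class size. -/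
noncomputable def tt (ρ : DihedralGroup m → DihedralGroup m → Prop) (x : DihedralGroup m) : ℕ := by
  classical exact (univ.filter fun y : DihedralGroup m => ρ x y).card

theorem tt_eq (x : DihedralGroup m) : tt ρ x = uu ρ x + vv ρ x := by
  classical
  simp only [tt, uu, vv]
  rw [Finset.card_filter, sum_D, Finset.card_filter, Finset.card_filter]

theorem uu_inv (hρ : IsSR ρ) : Inv ρ (uu ρ) := by
  classical
  intro x y hxy
  simp only [uu]
  congr 1
  ext t
  simp only [mem_filter, mem_univ, true_and]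
  exact ⟨fun h => hρ.equiv.trans (hρ.equiv.symm hxy) h, fun h => hρ.equiv.trans hxy h⟩

theorem vv_inv (hρ : IsSR ρ) : Inv ρ (vv ρ) := by
  classical
  intro x y hxy
  simp only [vv]
  congr 1
  ext t
  simp only [mem_filter, mem_univ, true_and]
  exact ⟨fun h => hρ.equiv.trans (hρ.equiv.symm hxy) h, fun h => hρ.equiv.trans hxy h⟩

theorem tt_inv (hρ : IsSR ρ) : Inv ρ (tt ρ) := by
  intro x y hxy
  rw [tt_eq, tt_eq, uu_inv hρ x y hxy, vv_inv hρ x y hxy]

theorem uu_rat (hρ : IsSR ρ) (hp : Prim ρ) (k : (ZMod m)ˣ) (i : ZMod m) :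
    uu ρ (r ((k : ZMod m) * i)) = uu ρ (r i) := by
  classical
  simp only [uu]
  symm
  refine Finset.card_bij (fun t _ => k * t) ?_ ?_ ?_
  · intro t ht
    rw [mem_filter] at ht ⊢
    exact ⟨mem_univ _, rat_rel hρ hp k ht.2⟩
  · intro a _ b _ hab
    exact k.isUnit.mul_left_cancel hab
  · intro b hb
    rw [mem_filter] at hb
    refine ⟨(k⁻¹ : (ZMod m)ˣ) * b, ?_, by simp⟩
    rw [mem_filter]
    refine ⟨mem_univ _, ?_⟩
    have := rat_rel hρ hp k⁻¹ hb.2
    simpa using this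

theorem tt_rat (hm : 2 ≤ m) (hρ : IsSR ρ) (hp : Prim ρ) (k : (ZMod m)ˣ) (i : ZMod m) :
    tt ρ (r ((k : ZMod m) * i)) = tt ρ (r i) := by
  classical
  obtain ⟨q, hq2, hq, hqk⟩ := exists_prime k⁻¹ (2 * m + 2)
  haveI : Fact q.Prime := ⟨hq⟩
  have hodd : Odd q := odd_of_gt hq (by omega)
  let T' : Set (DihedralGroup m) := {y | ρ (r ((k : ZMod m) * i)) y}
  let T : Set (DihedralGroup m) := {y | ρ (r i) y}
  have hX : InvA ρ (ind (ZMod q) T') := ind_inv (sat_class hρ _)
  have hY : InvA ρ (ind (ZMod q) T) := ind_inv (sat_class hρ _)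
  have hw : (q : ZMod m) * (k : ZMod m) = 1 := by rw [hqk]; simp
  have hXY : ind (ZMod q) T' ^ q = ind (ZMod q) T := by
    rw [← sub_eq_zero]
    refine eq_zero_of_rot hm hρ hp (InvA.sub (InvA.pow hρ hX q) hY) ?_
    intro y
    simp only [MonoidAlgebra.coeff_sub, Finsupp.sub_apply]
    rw [frob_unit hρ hp hodd hw hX, sub_eq_zero, coeff_ind, coeff_ind]
    have : r (y * (k : ZMod m)) ∈ T' ↔ r y ∈ T := by
      simp only [T', T, Set.mem_ofPred_eq]
      rw [mul_comm y]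
      constructor
      · intro h
        have := rat_rel hρ hp k⁻¹ h
        simpa using this
      · exact rat_rel hρ hp k
    simp only [this]
  have h1 := congrArg aug hXY
  rw [aug_pow, aug_ind, aug_ind] at h1
  have h2 : ((univ.filter (· ∈ T') : Finset (DihedralGroup m)).card : ZMod q) =
      ((univ.filter (· ∈ T) : Finset (DihedralGroup m)).card : ZMod q) := by
    rw [← h1, ZMod.pow_card]
  rw [ZMod.natCast_eq_natCast_iff'] at h2
  have hc : ∀ S : Set (DihedralGroup m), (univ.filter (· ∈ S)).card ≤ 2 * m := by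
    intro S
    calc _ ≤ Fintype.card (DihedralGroup m) := Finset.card_le_univ _
      _ = 2 * m := DihedralGroup.card
  rw [Nat.mod_eq_of_lt (lt_of_le_of_lt (hc _) (by omega)),
    Nat.mod_eq_of_lt (lt_of_le_of_lt (hc _) (by omega))] at h2
  simp only [tt]
  convert h2 <;> exact Iff.rfl

theorem vv_rat (hm : 2 ≤ m) (hρ : IsSR ρ) (hp : Prim ρ) (k : (ZMod m)ˣ) (i : ZMod m) :
    vv ρ (r ((k : ZMod m) * i)) = vv ρ (r i) := by
  have h1 := tt_rat hm hρ hp k i
  rw [tt_eq, tt_eq, uu_rat hρ hp k i] at h1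
  omega

/-- The double count. -/
theorem double_count (x₀ : DihedralGroup m) (hρ : IsSR ρ) (hV : ∀ i, i ≠ 0 → vv ρ (r i) = vv ρ x₀)
    (hU : ∀ t, uu ρ (sr t) = uu ρ x₀) : (m - 1) * vv ρ x₀ = m * uu ρ x₀ := by
  classical
  have hcard : ((univ : Finset (ZMod m)).erase 0).card = m - 1 := by
    rw [Finset.card_erase_of_mem (mem_univ _), Finset.card_univ, ZMod.card]
  have h1 : ∑ i ∈ (univ : Finset (ZMod m)).erase 0, vv ρ (r i) = (m - 1) * vv ρ x₀ := by
    rw [Finset.sum_congr rfl (fun i hi => hV i (Finset.ne_of_mem_erase hi)), Finset.sum_const, hcard,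
      smul_eq_mul]
  have h2 : ∑ t : ZMod m, uu ρ (sr t) = m * uu ρ x₀ := by
    rw [Finset.sum_congr rfl (fun t _ => hU t), Finset.sum_const, Finset.card_univ, ZMod.card,
      smul_eq_mul]
  rw [← h1, ← h2]
  simp only [vv, uu]
  simp only [Finset.card_filter]
  rw [Finset.sum_comm]
  refine Finset.sum_congr rfl fun t _ => ?_
  rw [← Finset.sum_erase (s := univ) (a := (0 : ZMod m))]
  · refine Finset.sum_congr rfl fun i _ => ?_
    have : ρ (r i) (sr t) ↔ ρ (sr t) (r i) := ⟨fun h => hρ.equiv.symm h, fun h => hρ.equiv.symm h⟩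
    simp only [this]
  · rw [if_neg]
    intro h
    have := hρ.one _ (hρ.equiv.symm h)
    cases this

/-- If the rational coarsening is trivial then so is `ρ`. -/
theorem triv_of_rat_triv (hm : 2 ≤ m) (hρ : IsSR ρ) (hp : Prim ρ)
    (ht : Triv (Coarse ρ RatGen)) : Triv ρ := by
  classical
  haveI : Fact (1 < m) := ⟨hm⟩
  have hone : (1 : ZMod m) ≠ 0 := one_ne_zero
  let x₀ : DihedralGroup m := r 1
  have hx₀ : x₀ ≠ 1 := fun h => hone (r.inj h)
  have hiv : ∀ {α : Type} {f : DihedralGroup m → α}, Inv ρ f →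
      (∀ (k : (ZMod m)ˣ) i, f (r ((k : ZMod m) * i)) = f (r i)) → ∀ x, x ≠ 1 → f x = f x₀ := by
    intro α f hf hr x hx
    refine Inv.coarse (gen := RatGen) hf ?_ x x₀ (ht x x₀ hx hx₀)
    rintro x y ⟨k, i, rfl, rfl⟩
    exact hr k i
  have hU := hiv (uu_inv hρ) (uu_rat hρ hp)
  have hV := hiv (vv_inv hρ) (vv_rat hm hρ hp)
  have hdc := double_count x₀ hρ (fun i hi => hV _ (fun h => hi (r.inj h)))
    (fun t => hU _ (by intro (h : sr t = r 0); cases h))
  have hmpos : 0 < m := by omega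
  have hdvd : m ∣ vv ρ x₀ := by
    have h1 : m ∣ (m - 1) * vv ρ x₀ := ⟨_, hdc⟩
    have h2 : Nat.Coprime m (m - 1) := by
      have := Nat.coprime_self_sub_right (n := m) (m := 1) (by omega)
      simpa using this
    exact h2.dvd_of_dvd_mul_left h1
  have hpos : 0 < vv ρ x₀ := by
    obtain ⟨j, hj⟩ := refl_of_rot hρ hp hone
    exact Finset.card_pos.mpr ⟨j, by simpa [x₀] using hj⟩
  have hle : vv ρ x₀ ≤ m := by
    simp only [vv]
    calc _ ≤ (univ : Finset (ZMod m)).card := Finset.card_le_univ _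
      _ = m := by rw [Finset.card_univ, ZMod.card]
  have heq : vv ρ x₀ = m := le_antisymm hle (Nat.le_of_dvd hpos hdvd)
  have hall : ∀ i, i ≠ 0 → ∀ t, ρ (r i) (sr t) := by
    intro i hi t
    have h1 : vv ρ (r i) = m := by rw [hV _ (fun h => hi (r.inj h)), heq]
    have h2 : (univ.filter fun t : ZMod m => ρ (r i) (sr t)) = univ := by
      refine Finset.eq_univ_of_card _ ?_
      rw [Fintype.card_congr (Equiv.refl _), ZMod.card]
      simpa only [vv] using h1
    have h3 : t ∈ (univ.filter fun t : ZMod m => ρ (r i) (sr t)) := by rw [h2]; exact mem_univ _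
    exact (mem_filter.mp h3).2
  have hbase : ∀ x, x ≠ 1 → ρ x (sr 0) := by
    intro x hx
    rcases x with i | t
    · exact hall i (by rintro rfl; exact hx rfl) 0
    · exact hρ.equiv.trans (hρ.equiv.symm (hall 1 hone t)) (hall 1 hone 0)
  intro x y hx hy
  exact hρ.equiv.trans (hbase x hx) (hρ.equiv.symm (hbase y hy))

/-- Units act transitively on elements of a given order. -/
theorem exists_unit_of_addOrderOf_eq {t t' : ZMod m} (h : addOrderOf t = addOrderOf t') :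
    ∃ k : (ZMod m)ˣ, t' = k * t := by
  have hm0 : m ≠ 0 := NeZero.ne m
  obtain ⟨a, rfl⟩ : ∃ a : ℕ, (a : ZMod m) = t := ⟨t.val, ZMod.natCast_zmod_val t⟩
  obtain ⟨a', rfl⟩ : ∃ a : ℕ, (a : ZMod m) = t' := ⟨t'.val, ZMod.natCast_zmod_val t'⟩
  rw [ZMod.addOrderOf_coe a hm0, ZMod.addOrderOf_coe a' hm0] at h
  have hg : Nat.gcd m a = Nat.gcd m a' := by
    have h1 := Nat.gcd_dvd_left m a
    have h2 := Nat.gcd_dvd_left m a'
    have hp1 : 0 < Nat.gcd m a := Nat.gcd_pos_of_pos_left _ (Nat.pos_of_ne_zero hm0)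
    have hp2 : 0 < Nat.gcd m a' := Nat.gcd_pos_of_pos_left _ (Nat.pos_of_ne_zero hm0)
    have h3 := Nat.div_mul_cancel h1
    have h4 := Nat.div_mul_cancel h2
    rw [h] at h3
    have hpos : 0 < m / Nat.gcd m a' :=
      Nat.div_pos (Nat.le_of_dvd (Nat.pos_of_ne_zero hm0) h2) hp2
    exact Nat.eq_of_mul_eq_mul_left hpos (h3.trans h4.symm)
  set g := Nat.gcd m a with hgdef
  have hgpos : 0 < g := Nat.gcd_pos_of_pos_left _ (Nat.pos_of_ne_zero hm0)
  obtain ⟨n, hn⟩ : g ∣ m := Nat.gcd_dvd_left m a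
  obtain ⟨α, hα⟩ : g ∣ a := Nat.gcd_dvd_right m a
  obtain ⟨β, hβ⟩ : g ∣ a' := hg ▸ Nat.gcd_dvd_right m a'
  have hnm : n ∣ m := ⟨g, by rw [hn, mul_comm]⟩
  have hn0 : n ≠ 0 := by
    rintro rfl
    exact hm0 (by rw [hn, mul_zero])
  haveI : NeZero n := ⟨hn0⟩
  have hc1 : Nat.Coprime α n := by
    have : Nat.gcd (g * n) (g * α) = g := by rw [← hn, ← hα]
    rw [Nat.gcd_mul_left] at this
    have h5 : Nat.gcd n α = 1 := by
      have := Nat.eq_of_mul_eq_mul_left hgpos (this.trans (mul_one g).symm)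
      exact this
    exact Nat.Coprime.symm h5
  have hc2 : Nat.Coprime β n := by
    have : Nat.gcd (g * n) (g * β) = g := by rw [← hn, ← hβ, ← hg]
    rw [Nat.gcd_mul_left] at this
    have h5 : Nat.gcd n β = 1 := by
      have := Nat.eq_of_mul_eq_mul_left hgpos (this.trans (mul_one g).symm)
      exact this
    exact Nat.Coprime.symm h5
  let ua : (ZMod n)ˣ := ZMod.unitOfCoprime α hc1
  let ub : (ZMod n)ˣ := ZMod.unitOfCoprime β hc2
  obtain ⟨k, hk⟩ := ZMod.unitsMap_surjective hnm (ub * ua⁻¹)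
  refine ⟨k, ?_⟩
  have hk2 : ((k : ZMod m).cast : ZMod n) * (α : ZMod n) = (β : ZMod n) := by
    have h6 : ((ZMod.unitsMap hnm k : (ZMod n)ˣ) : ZMod n) = ((k : ZMod m).cast : ZMod n) := rfl
    rw [← h6, hk]
    have h7 : (ua : ZMod n) = α := rfl
    have h8 : (ub : ZMod n) = β := rfl
    rw [← h7, ← h8]
    simp
  have hk3 : (((k : ZMod m).val * α : ℕ) : ZMod n) = (β : ZMod n) := by
    rw [Nat.cast_mul, ← hk2]
    congr 1
    rw [ZMod.natCast_val]
  rw [ZMod.natCast_eq_natCast_iff] at hk3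
  have hk4 : Nat.ModEq (g * n) (g * ((k : ZMod m).val * α)) (g * β) := hk3.mul_left' g
  rw [← hn] at hk4
  have hk5 := (ZMod.natCast_eq_natCast_iff _ _ _).mpr hk4
  rw [hβ, hα, ← hk5]
  push_cast
  rw [ZMod.natCast_zmod_val]
  ring

/-- Elements of equal order are related when `ρ` is rational. -/
theorem rel_of_order (hρ : IsSR ρ) (hrat : ∀ (k : (ZMod m)ˣ) i, ρ (r ((k : ZMod m) * i)) (r i)) {t t' : ZMod m}
    (h : addOrderOf t = addOrderOf t') : ρ (r t) (r t') := by
  obtain ⟨k, rfl⟩ := exists_unit_of_addOrderOf_eq h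
  exact hρ.equiv.symm (hrat k t)

end Cfsg.Agent.Lib.Dih.Rat
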