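import Mathlib
import Cfsg.Agent.Lib.Dih.Rat
import Cfsg.Agent.Lib.Dih.Arith

/-!
# Dihedral Schur rings: coarsening along a periodicity of the reflections

Counting formulae for products in the dihedral group, the coarsening generated by translating
reflections by a set `Ω`, and the configuration `Arith.Cfg` defined by a set whose self-product is
constant away from the identity.
-/

namespace Cfsg.Agent.Lib.Dih.Shift

open Finset DihedralGroup Cfsg.Agent.Lib.Dih.SR Cfsg.Agent.Lib.Dih.Basic

variable {m : ℕ} [NeZero m] {ρ : DihedralGroup m → DihedralGroup m → Prop}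

open Classical in
theorem cnt_sr (S T : Set (DihedralGroup m)) (t : ZMod m) :
    cnt S T (sr t) = (univ.filter fun i : ZMod m => r i ∈ S ∧ sr (t + i) ∈ T).card +
      (univ.filter fun i : ZMod m => sr i ∈ S ∧ r (t - i) ∈ T).card := by
  simp only [cnt, Finset.card_filter]
  rw [sum_D]
  simp only [inv_r, r_mul_sr, inv_sr, sr_mul_sr, sub_neg_eq_add]
  congr!

open Classical in
theorem cnt_r (S T : Set (DihedralGroup m)) (t : ZMod m) :
    cnt S T (r t) = (univ.filter fun i : ZMod m => r i ∈ S ∧ r (t - i) ∈ T).card +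
      (univ.filter fun i : ZMod m => sr i ∈ S ∧ sr (i + t) ∈ T).card := by
  simp only [cnt, Finset.card_filter]
  rw [sum_D]
  simp only [inv_r, r_mul_r, inv_sr, sr_mul_r, sub_eq_neg_add]
  congr!

/-- Translating reflections, for invariance under translation on reflections. -/
theorem cnt_sr_shift {S T : Set (DihedralGroup m)} {ω : ZMod m}
    (hS : ∀ t, sr (t + ω) ∈ S ↔ sr t ∈ S) (hT : ∀ t, sr (t + ω) ∈ T ↔ sr t ∈ T) (t : ZMod m) :
    cnt S T (sr (t + ω)) = cnt S T (sr t) := by
  classical
  rw [cnt_sr, cnt_sr]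
  congr 1
  · congr 1
    ext i
    simp only [mem_filter, mem_univ, true_and]
    have := hT (t + i)
    rw [show t + i + ω = t + ω + i by ring] at this
    rw [this]
  · symm
    refine Finset.card_equiv (Equiv.addRight ω) ?_
    intro i
    simp only [mem_filter, mem_univ, true_and, Equiv.coe_addRight]
    rw [hS i, show t + ω - (i + ω) = t - i by ring]

/-- Translating reflections, for sets invariant under translation on rotations. -/
theorem cnt_sr_shift' {S T : Set (DihedralGroup m)} {ω : ZMod m}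
    (hS : ∀ t, r (t + ω) ∈ S ↔ r t ∈ S) (hT : ∀ t, r (t + ω) ∈ T ↔ r t ∈ T) (t : ZMod m) :
    cnt S T (sr (t + ω)) = cnt S T (sr t) := by
  classical
  rw [cnt_sr, cnt_sr]
  congr 1
  · refine Finset.card_equiv (Equiv.addRight ω) ?_
    intro i
    simp only [mem_filter, mem_univ, true_and, Equiv.coe_addRight]
    rw [hS i, show t + ω + i = t + (i + ω) by ring]
  · congr 1
    ext i
    simp only [mem_filter, mem_univ, true_and]
    have := hT (t - i)
    rw [show t - i + ω = t + ω - i by ring] at this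
    rw [this]

/-- Generating pairs of the coarsening. -/
def PerGen (Ω : Set (ZMod m)) (x y : DihedralGroup m) : Prop :=
  ∃ t, ∃ ω ∈ Ω, x = sr (t + ω) ∧ y = sr t

theorem isSR_per (hρ : IsSR ρ) (Ω : Set (ZMod m)) : IsSR (Coarse ρ (PerGen Ω)) := by
  refine hρ.coarse ?_ ?_ ?_
  · rintro x y ⟨t, ω, _, rfl, rfl⟩
    constructor
    · intro (h : sr (t + ω) = r 0)
      cases h
    · intro (h : sr t = r 0)
      cases h
  · rintro x y ⟨t, ω, hω, rfl, rfl⟩
    exact gen_coarse ⟨t, ω, hω, rfl, rfl⟩
  · rintro S T hS hT x y ⟨t, ω, hω, rfl, rfl⟩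
    exact cnt_sr_shift (fun t => hS _ _ (gen_coarse ⟨t, ω, hω, rfl, rfl⟩))
      (fun t => hT _ _ (gen_coarse ⟨t, ω, hω, rfl, rfl⟩)) t

open Classical in
/-- Indicator on rotations. -/
noncomputable def fU (Y : Set (DihedralGroup m)) (i : ZMod m) : ℚ := if r i ∈ Y then 1 else 0

open Classical in
/-- Indicator on reflections. -/
noncomputable def fV (Y : Set (DihedralGroup m)) (i : ZMod m) : ℚ := if sr i ∈ Y then 1 else 0

open Classical in
theorem sum_ind_mul (P Q : ZMod m → Prop) :
    ∑ i, ((if P i then 1 else 0 : ℚ) * (if Q i then 1 else 0 : ℚ)) =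
      (((univ.filter fun i => P i ∧ Q i).card : ℕ) : ℚ) := by
  rw [Finset.card_filter, Nat.cast_sum]
  refine Finset.sum_congr rfl fun i _ => ?_
  by_cases h1 : P i <;> by_cases h2 : Q i <;> simp [h1, h2]

/-- The configuration attached to `Y`. -/
theorem cfg_of (hρ : IsSR ρ) (hp : Prim ρ) {Y : Set (DihedralGroup m)} (hY : Sat ρ Y)
    (hc : ∀ x, x ≠ 1 → cnt Y Y x = cnt Y Y (sr 0)) :
    Arith.Cfg (fU Y) (fV Y) ((cnt Y Y (sr 0) : ℕ) : ℚ) where
  hU i := by
    classical
    by_cases h : r i ∈ Y <;> simp [fU, h]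
  hV i := by
    classical
    by_cases h : sr i ∈ Y <;> simp [fV, h]
  sym i := by
    classical
    have := hY _ _ (sym hρ hp (r i))
    simp only [inv_r] at this
    simp only [fU, this]
  e1 t ht := by
    classical
    rw [← hc (r t) (fun h => ht (r.inj h)), cnt_r, Nat.cast_add, ← sum_ind_mul, ← sum_ind_mul,
      Finset.sum_add_distrib]
    simp only [fU, fV]
  e2 t := by
    classical
    rw [← hc (sr t) (by intro (h : sr t = r 0); cases h), cnt_sr, Nat.cast_add, ← sum_ind_mul,
      ← sum_ind_mul, Finset.sum_add_distrib]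
    simp only [fU, fV]

open Classical in
theorem sum_fU (Y : Set (DihedralGroup m)) :
    ∑ i, fU Y i = (((univ.filter fun i : ZMod m => r i ∈ Y).card : ℕ) : ℚ) := by
  rw [Finset.card_filter, Nat.cast_sum]
  refine Finset.sum_congr rfl fun i _ => ?_
  by_cases h1 : r i ∈ Y <;> simp [fU, h1]

open Classical in
theorem sum_fV (Y : Set (DihedralGroup m)) :
    ∑ i, fV Y i = (((univ.filter fun i : ZMod m => sr i ∈ Y).card : ℕ) : ℚ) := by
  rw [Finset.card_filter, Nat.cast_sum]
  refine Finset.sum_congr rfl fun i _ => ?_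
  by_cases h1 : sr i ∈ Y <;> simp [fV, h1]

end Cfsg.Agent.Lib.Dih.Shift
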