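import Mathlib
import Cfsg.Agent.Lib.Dih.Shift

/-!
# Dihedral Schur rings: periodicity of the rotation part of a class

The solutions `Om p` of `p * x = 0` in `ZMod m`; sets invariant under them; the claim that the
rotation part of a suitably chosen class is invariant away from `Om p`.
-/

namespace Cfsg.Agent.Lib.Dih.Per

open Finset DihedralGroup Cfsg.Agent.Lib.Dih.SR Cfsg.Agent.Lib.Dih.Basic
  Cfsg.Agent.Lib.Dih.Rat

variable {m : ℕ} [NeZero m] {ρ : DihedralGroup m → DihedralGroup m → Prop}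

/-- The solutions of `p * x = 0`. -/
def Om (p : ℕ) : Finset (ZMod m) := univ.filter fun ω => ω * (p : ZMod m) = 0

theorem mem_Om {p : ℕ} {ω : ZMod m} : ω ∈ (Om p : Finset (ZMod m)) ↔ ω * (p : ZMod m) = 0 := by
  simp [Om]

theorem card_Om {p : ℕ} (hp : p.Prime) (hpm : p ∣ m) : (Om p : Finset (ZMod m)).card = p := by
  obtain ⟨m', hm'⟩ := hpm
  have hm0 : m ≠ 0 := NeZero.ne m
  have hm'0 : 0 < m' := by
    rcases Nat.eq_zero_or_pos m' with h | h
    · exact absurd (by rw [hm', h, mul_zero]) hm0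
    · exact h
  conv_rhs => rw [← Finset.card_range p]
  symm
  refine Finset.card_bij (fun k _ => ((k * m' : ℕ) : ZMod m)) ?_ ?_ ?_
  · intro k _
    rw [mem_Om, ← Nat.cast_mul, ZMod.natCast_eq_zero_iff]
    exact ⟨k, by rw [hm']; ring⟩
  · intro a ha b hb hab
    rw [mem_range] at ha hb
    rw [ZMod.natCast_eq_natCast_iff'] at hab
    have h1 : a * m' < m := by
      rw [hm']
      exact Nat.mul_lt_mul_of_pos_right ha hm'0
    have h2 : b * m' < m := by
      rw [hm']
      exact Nat.mul_lt_mul_of_pos_right hb hm'0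
    rw [Nat.mod_eq_of_lt h1, Nat.mod_eq_of_lt h2] at hab
    exact Nat.eq_of_mul_eq_mul_right hm'0 hab
  · intro ω hω
    rw [mem_Om] at hω
    have h1 : ((ω.val * p : ℕ) : ZMod m) = 0 := by
      rw [Nat.cast_mul, ZMod.natCast_zmod_val, hω]
    rw [ZMod.natCast_eq_zero_iff] at h1
    have h2 : m' ∣ ω.val := by
      have h1' : p * m' ∣ p * ω.val := by
        rw [← hm', mul_comm p]
        exact h1
      exact Nat.dvd_of_mul_dvd_mul_left hp.pos h1'
    obtain ⟨k, hk⟩ := h2
    have hlt : ω.val < m := ZMod.val_lt ω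
    refine ⟨k, ?_, ?_⟩
    · rw [mem_range]
      rw [hk, hm', mul_comm m'] at hlt
      exact Nat.lt_of_mul_lt_mul_right hlt
    · rw [mul_comm, ← hk, ZMod.natCast_zmod_val]

theorem fiber_image {S : Finset (ZMod m)} {p : ℕ}
    (hper : ∀ t ∈ S, ∀ ω ∈ (Om p : Finset (ZMod m)), t + ω ∈ S) {t : ZMod m} (ht : t ∈ S) :
    S.filter (fun s => s * (p : ZMod m) = t * p) = (Om p).image (t + ·) := by
  ext s
  simp only [mem_filter, mem_image]
  constructor
  · rintro ⟨_, h⟩
    refine ⟨s - t, ?_, by ring⟩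
    rw [mem_Om, sub_mul, h, sub_self]
  · rintro ⟨ω, hω, rfl⟩
    refine ⟨hper t ht ω hω, ?_⟩
    rw [add_mul, mem_Om.mp hω, add_zero]

theorem card_image_add (p : ℕ) (t : ZMod m) :
    ((Om p : Finset (ZMod m)).image (t + ·)).card = (Om p : Finset (ZMod m)).card :=
  Finset.card_image_of_injective _ (add_right_injective t)

theorem dvd_card_of_per {S : Finset (ZMod m)} {p : ℕ} (hΩ : (Om p : Finset (ZMod m)).card = p)
    (hper : ∀ t ∈ S, ∀ ω ∈ (Om p : Finset (ZMod m)), t + ω ∈ S) : p ∣ S.card := by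
  rw [Finset.card_eq_sum_card_image (fun s => s * (p : ZMod m)) S]
  refine Finset.dvd_sum ?_
  intro y hy
  obtain ⟨t, ht, rfl⟩ := Finset.mem_image.mp hy
  rw [fiber_image hper ht, card_image_add, hΩ]

section Frob

variable {p : ℕ} [Fact p.Prime]

open Classical in
theorem frob_count (hρ : IsSR ρ) (hp : Prim ρ) (hodd : Odd p) {Y : Set (DihedralGroup m)}
    (hY : Sat ρ Y) (y : ZMod m) :
    (ind (ZMod p) Y ^ p).coeff (r y) =
      ((((univ.filter fun s : ZMod m => r s ∈ Y).filter fun s => s * (p : ZMod m) = y).card : ℕ) :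
        ZMod p) := by
  rw [frob hρ hp hodd (ind_inv hY)]
  simp only [coeff_ind]
  rw [Finset.filter_comm, Finset.card_filter, Nat.cast_sum]
  refine Finset.sum_congr rfl fun t _ => ?_
  by_cases h : r t ∈ Y <;> simp [h]

open Classical in
/-- `p` divides the size of a set which is periodic on rotations. -/
theorem dvd_card_Y (hm : 2 ≤ m) (hρ : IsSR ρ) (hp : Prim ρ) (hodd : Odd p)
    (hΩ : (Om p : Finset (ZMod m)).card = p) {Y : Set (DihedralGroup m)}
    (hY : Sat ρ Y) (hper : ∀ t, ∀ ω ∈ (Om p : Finset (ZMod m)), r t ∈ Y → r (t + ω) ∈ Y) :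
    p ∣ (univ.filter fun s : ZMod m => r s ∈ Y).card +
      (univ.filter fun s : ZMod m => sr s ∈ Y).card := by
  set S := univ.filter fun s : ZMod m => r s ∈ Y with hS
  have hper' : ∀ t ∈ S, ∀ ω ∈ (Om p : Finset (ZMod m)), t + ω ∈ S := by
    intro t ht ω hω
    rw [hS, mem_filter] at ht ⊢
    exact ⟨mem_univ _, hper t ω hω ht.2⟩
  have hX0 : ind (ZMod p) Y ^ p = 0 := by
    refine eq_zero_of_rot hm hρ hp (InvA.pow hρ (ind_inv hY) p) ?_
    intro y
    rw [frob_count hρ hp hodd hY]
    by_cases hex : ∃ t ∈ S, t * (p : ZMod m) = y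
    · obtain ⟨t, ht, rfl⟩ := hex
      rw [← hS, fiber_image hper' ht, card_image_add, hΩ]
      simp
    · push Not at hex
      have : (S.filter fun s => s * (p : ZMod m) = y) = ∅ := by
        ext s
        simp only [mem_filter, notMem_empty, iff_false, not_and]
        exact hex s
      rw [← hS, this]
      simp
  have h1 := congrArg aug hX0
  rw [aug_pow, aug_ind] at h1
  have h2 : aug (0 : MonoidAlgebra (ZMod p) (DihedralGroup m)) = 0 := by
    simp [aug]
  rw [h2] at h1
  have h3 := pow_eq_zero_iff (Fact.out : p.Prime).ne_zero |>.mp h1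
  rw [ZMod.natCast_eq_zero_iff] at h3
  have h4 : (univ.filter (· ∈ Y) : Finset (DihedralGroup m)).card =
      (univ.filter fun s : ZMod m => r s ∈ Y).card +
      (univ.filter fun s : ZMod m => sr s ∈ Y).card := by
    rw [Finset.card_filter, sum_D, Finset.card_filter, Finset.card_filter]
  rw [h4] at h3
  exact h3

/-- The subgroup generated by the rotations in the class of `r i`. -/
def HH (ρ : DihedralGroup m → DihedralGroup m → Prop) (i : ZMod m) : AddSubgroup (ZMod m) :=
  AddSubgroup.closure {t | ρ (r i) (r t)}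

theorem mem_HH {i t : ZMod m} (h : ρ (r i) (r t)) : t ∈ HH ρ i := AddSubgroup.subset_closure h

/-- The image under multiplication by `p` of a subgroup of order divisible by `p` is smaller. -/
theorem card_map_lt (K : AddSubgroup (ZMod m)) (hpK : p ∣ Nat.card K) :
    Nat.card (K.map (AddMonoidHom.mulRight (p : ZMod m))) < Nat.card K := by
  classical
  obtain ⟨ω, hω⟩ := exists_prime_addOrderOf_dvd_card' p hpK
  let φ := (AddMonoidHom.mulRight (p : ZMod m)).addSubgroupMap K
  have hs : Function.Surjective φ := AddMonoidHom.addSubgroupMap_surjective _ _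
  have hni : ¬ Function.Injective φ := by
    intro hinj
    have h1 : φ ω = φ 0 := by
      apply Subtype.ext
      show (ω : ZMod m) * p = (0 : ZMod m) * p
      have h2 : p • ω = 0 := by
        rw [← hω]
        exact addOrderOf_nsmul_eq_zero ω
      have h3 : p • (ω : ZMod m) = 0 := by
        have := congrArg (Subtype.val) h2
        simpa using this
      rw [zero_mul, mul_comm, ← nsmul_eq_mul, h3]
    have h4 := hinj h1
    rw [h4, addOrderOf_zero] at hω
    exact (Fact.out : p.Prime).one_lt.ne hω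
  haveI := Fintype.ofFinite K
  haveI := Fintype.ofFinite (K.map (AddMonoidHom.mulRight (p : ZMod m)))
  rw [Nat.card_eq_fintype_card, Nat.card_eq_fintype_card]
  exact Fintype.card_lt_of_surjective_not_injective φ hs hni

/-- The claim for odd primes dividing the minimal order. -/
theorem claim_odd (hρ : IsSR ρ) (hp : Prim ρ) (hodd : Odd p)
    (hΩ : (Om p : Finset (ZMod m)).card = p) {i₀ : ZMod m}
    (hmin : ∀ i, i ≠ 0 → Nat.card (HH ρ i₀) ≤ Nat.card (HH ρ i))
    (hpd : p ∣ Nat.card (HH ρ i₀)) {t : ZMod m} (ht : ρ (r i₀) (r t))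
    (hpt : t * (p : ZMod m) ≠ 0) {ω : ZMod m} (hω : ω ∈ (Om p : Finset (ZMod m))) :
    ρ (r i₀) (r (t + ω)) := by
  classical
  let Y : Set (DihedralGroup m) := {x | ρ (r i₀) x}
  have hY : Sat ρ Y := sat_class hρ _
  set S := univ.filter fun s : ZMod m => r s ∈ Y with hS
  set y := t * (p : ZMod m) with hy
  -- the count at `y` vanishes
  have hzero : (ind (ZMod p) Y ^ p).coeff (r y) = 0 := by
    by_contra hne
    have hsub : HH ρ y ≤ (HH ρ i₀).map (AddMonoidHom.mulRight (p : ZMod m)) := by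
      rw [HH, AddSubgroup.closure_le]
      intro y' hy'
      have h1 : (ind (ZMod p) Y ^ p).coeff (r y') ≠ 0 := by
        have e : (ind (ZMod p) Y ^ p).coeff (r y) = (ind (ZMod p) Y ^ p).coeff (r y') :=
          InvA.pow hρ (ind_inv hY) p _ _ hy'
        rw [← e]
        exact hne
      rw [frob_count hρ hp hodd hY] at h1
      have h2 : ((S.filter fun s => s * (p : ZMod m) = y')).Nonempty := by
        by_contra hemp
        rw [Finset.not_nonempty_iff_eq_empty] at hemp
        apply h1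
        rw [← hS, hemp]
        simp
      obtain ⟨s, hs⟩ := h2
      rw [mem_filter, hS, mem_filter] at hs
      exact ⟨s, mem_HH hs.1.2, hs.2⟩
    have h3 := Nat.card_le_card_of_injective _ (AddSubgroup.inclusion_injective hsub)
    have h4 := card_map_lt (HH ρ i₀) hpd
    have h5 := hmin y hpt
    omega
  rw [frob_count hρ hp hodd hY, ZMod.natCast_eq_zero_iff, ← hS] at hzero
  set F := S.filter fun s => s * (p : ZMod m) = y with hF
  have htS : t ∈ S := by
    rw [hS, mem_filter]
    exact ⟨mem_univ _, ht⟩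
  have htF : t ∈ F := by
    rw [hF, mem_filter]
    exact ⟨htS, rfl⟩
  have hsub : F ⊆ (Om p : Finset (ZMod m)).image (t + ·) := by
    intro s hs
    rw [hF, mem_filter] at hs
    rw [mem_image]
    refine ⟨s - t, ?_, by ring⟩
    rw [mem_Om, sub_mul, hs.2, sub_self]
  have hle : F.card ≤ p := by
    have := Finset.card_le_card hsub
    rwa [card_image_add, hΩ] at this
  have hFp : F.card = p :=
    le_antisymm hle (Nat.le_of_dvd (Finset.card_pos.mpr ⟨t, htF⟩) hzero)
  have hFeq : F = (Om p : Finset (ZMod m)).image (t + ·) :=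
    Finset.eq_of_subset_of_card_le hsub (by rw [card_image_add, hΩ, hFp])
  have hmem : t + ω ∈ F := by
    rw [hFeq, mem_image]
    exact ⟨ω, hω, rfl⟩
  rw [hF, mem_filter, hS, mem_filter] at hmem
  exact hmem.1.2

end Frob

/-- The claim when the minimal order is a power of two. -/
theorem claim_two (hρ : IsSR ρ) (hrat : ∀ (k : (ZMod m)ˣ) i, ρ (r ((k : ZMod m) * i)) (r i))
    {i₀ : ZMod m} (h2 : ∀ q : ℕ, q.Prime → q ∣ Nat.card (HH ρ i₀) → q = 2)
    {t : ZMod m} (ht : ρ (r i₀) (r t))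
    (hpt : t * ((2 : ℕ) : ZMod m) ≠ 0) {ω : ZMod m} (hω : ω ∈ (Om 2 : Finset (ZMod m))) :
    ρ (r i₀) (r (t + ω)) := by
  haveI : Fact (Nat.Prime 2) := ⟨Nat.prime_two⟩
  have hd0 : Nat.card (HH ρ i₀) ≠ 0 := Nat.card_pos.ne'
  have hd := Nat.eq_prime_pow_of_unique_prime_dvd hd0 (fun {d} hd hdd => h2 d hd hdd)
  have hdvd : addOrderOf t ∣ Nat.card (HH ρ i₀) := AddSubgroup.addOrderOf_dvd_natCard _ (mem_HH ht)
  rw [hd] at hdvd
  obtain ⟨b, _, hb⟩ := (Nat.dvd_prime_pow Nat.prime_two).mp hdvd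
  have h2t : (2 : ℕ) • t ≠ 0 := by
    rw [nsmul_eq_mul, mul_comm]
    exact hpt
  have hb2 : 2 ≤ b := by
    by_contra hlt
    push Not at hlt
    apply h2t
    rw [← addOrderOf_dvd_iff_nsmul_eq_zero, hb]
    simpa using pow_dvd_pow 2 (by omega : b ≤ 1)
  obtain ⟨j, rfl⟩ : ∃ j, b = j + 2 := ⟨b - 2, by omega⟩
  have h2ω : (2 : ℕ) • ω = 0 := by
    rw [nsmul_eq_mul, mul_comm]
    exact mem_Om.mp hω
  have hpow : (2 : ℕ) ^ (j + 1) • ω = 0 := by
    rw [pow_succ, mul_comm, mul_nsmul, h2ω, smul_zero]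
  have hnot : ¬ (2 : ℕ) ^ (j + 1) • t = 0 := by
    rw [← addOrderOf_dvd_iff_nsmul_eq_zero, hb]
    intro h
    have := Nat.le_of_dvd (by positivity) h
    have h3 : (2 : ℕ) ^ (j + 1) < 2 ^ (j + 2) := Nat.pow_lt_pow_right (by norm_num) (by omega)
    omega
  have hfin : (2 : ℕ) ^ (j + 2) • t = 0 := by
    rw [← hb]
    exact addOrderOf_nsmul_eq_zero t
  have h1 : addOrderOf (t + ω) = 2 ^ (j + 2) := by
    refine addOrderOf_eq_prime_pow (n := j + 1) ?_ ?_
    · rw [nsmul_add, hpow, add_zero]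
      exact hnot
    · have h5 : (2 : ℕ) ^ (j + 1 + 1) • ω = 0 := by
        rw [pow_succ, mul_nsmul, hpow, smul_zero]
      rw [nsmul_add, h5, add_zero]
      exact hfin
  exact hρ.equiv.trans ht (rel_of_order hρ hrat (hb.trans h1.symm))

end Cfsg.Agent.Lib.Dih.Per
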