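import Mathlib
import Cfsg.Agent.Lib.Dih.Per

/-!
# Primitive Schur rings over dihedral groups are trivial
-/

namespace Cfsg.Agent.Lib.Dih.Main

open Finset DihedralGroup Cfsg.Agent.Lib.Dih.SR Cfsg.Agent.Lib.Dih.Basic
  Cfsg.Agent.Lib.Dih.Rat Cfsg.Agent.Lib.Dih.Shift Cfsg.Agent.Lib.Dih.Per

variable {m : ℕ} [NeZero m] {ρ : DihedralGroup m → DihedralGroup m → Prop}

theorem card_lt_of_not_all {P : ZMod m → Prop} [DecidablePred P] (h : ¬ ∀ i, P i) :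
    (univ.filter P).card < m := by
  obtain ⟨i, hi⟩ := not_forall.mp h
  have := Finset.card_lt_univ_of_notMem (s := univ.filter P) (x := i) (by simp [hi])
  rwa [ZMod.card] at this

/-- A set periodic on rotations, not trivial, with no configuration gives a coarsening. -/
theorem coarsen_of_per (hρ : IsSR ρ) (hp : Prim ρ) {Ω : Set (ZMod m)}
    {Y : Set (DihedralGroup m)} (hY : Sat ρ Y) (hper : ∀ t, ∀ ω ∈ Ω, r t ∈ Y → r (t + ω) ∈ Y)
    (hneg : ∀ ω ∈ Ω, -ω ∈ Ω) (hne : Y ≠ ∅) (hnu : Y ≠ Set.univ) {ω₀ : ZMod m} (hω₀ : ω₀ ∈ Ω)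
    (hω₀0 : ω₀ ≠ 0) (hcfg : ∀ c, Arith.Cfg (fU Y) (fV Y) c → False) :
    ∃ ρ' : DihedralGroup m → DihedralGroup m → Prop, IsSR ρ' ∧ (∀ x y, ρ x y → ρ' x y) ∧
      (∃ x y, ρ' x y ∧ ¬ ρ x y) ∧ ¬ Triv ρ' := by
  have hiff : ∀ t, ∀ ω ∈ Ω, r (t + ω) ∈ Y ↔ r t ∈ Y := by
    intro t ω hω
    refine ⟨fun h => ?_, hper t ω hω⟩
    have := hper _ _ (hneg ω hω) h
    simpa using this
  refine ⟨Coarse ρ (PerGen Ω), isSR_per hρ Ω, fun _ _ h => le_coarse h, ?_, ?_⟩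
  · by_contra hno
    push Not at hno
    have hst : ∀ x, x ∈ Y ↔ r ω₀ * x ∈ Y := by
      intro x
      rcases x with t | t
      · rw [r_mul_r, add_comm]
        exact (hiff t ω₀ hω₀).symm
      · rw [r_mul_sr]
        have h1 := hno (sr ((t - ω₀) + ω₀)) (sr (t - ω₀)) (gen_coarse ⟨_, ω₀, hω₀, rfl, rfl⟩)
        have h2 := hY _ _ h1
        rwa [sub_add_cancel] at h2
    rcases hp.stable Y hY (r ω₀) (fun h => hω₀0 (r.inj h)) hst with h | h
    · exact hne h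
    · exact hnu h
  · intro ht
    have hinv : Inv (Coarse ρ (PerGen Ω)) (cnt Y Y) := by
      refine Inv.coarse (hρ.cnt_inv Y Y hY hY) ?_
      rintro x y ⟨t, ω, hω, rfl, rfl⟩
      exact cnt_sr_shift' (fun t => hiff t ω hω) (fun t => hiff t ω hω) t
    have hc : ∀ x, x ≠ 1 → cnt Y Y x = cnt Y Y (sr 0) := fun x hx =>
      hinv x (sr 0) (ht x (sr 0) hx (by intro (h : sr 0 = r 0); cases h))
    exact hcfg _ (cfg_of hρ hp hY hc)

/-- The class of `r i₀`, together with the identity if it meets the solutions of `p * x = 0`. -/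
def YY (ρ : DihedralGroup m → DihedralGroup m → Prop) (i₀ : ZMod m) (p : ℕ) :
    Set (DihedralGroup m) :=
  {x | ρ (r i₀) x ∨ ((∃ ω, ρ (r i₀) (r ω) ∧ ω * (p : ZMod m) = 0) ∧ x = 1)}

theorem YY_sat (hρ : IsSR ρ) (i₀ : ZMod m) (p : ℕ) : Sat ρ (YY ρ i₀ p) := by
  intro x y hxy
  constructor
  · rintro (h | ⟨he, rfl⟩)
    · exact Or.inl (hρ.equiv.trans h hxy)
    · exact Or.inr ⟨he, hρ.one _ hxy⟩
  · rintro (h | ⟨he, rfl⟩)
    · exact Or.inl (hρ.equiv.trans h (hρ.equiv.symm hxy))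
    · exact Or.inr ⟨he, hρ.one _ (hρ.equiv.symm hxy)⟩

theorem YY_per (hρ : IsSR ρ) {i₀ : ZMod m} (hi₀ : i₀ ≠ 0) {p : ℕ} (hpp : p.Prime)
    (hrat : ∀ (k : (ZMod m)ˣ) i, ρ (r ((k : ZMod m) * i)) (r i))
    (hclaim : ∀ t, ρ (r i₀) (r t) → t * (p : ZMod m) ≠ 0 →
      ∀ ω ∈ (Om p : Finset (ZMod m)), ρ (r i₀) (r (t + ω))) :
    ∀ t, ∀ ω ∈ (Om p : Finset (ZMod m)), r t ∈ YY ρ i₀ p → r (t + ω) ∈ YY ρ i₀ p := by
  haveI : Fact p.Prime := ⟨hpp⟩
  have hall : (∃ ω, ρ (r i₀) (r ω) ∧ ω * (p : ZMod m) = 0) → ∀ w, w * (p : ZMod m) = 0 →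
      r w ∈ YY ρ i₀ p := by
    intro he w hw
    by_cases hw0 : w = 0
    · subst hw0
      exact Or.inr ⟨he, rfl⟩
    · obtain ⟨ω₀, h1, h2⟩ := he
      have h0 : ω₀ ≠ 0 := by
        rintro rfl
        have := hρ.one _ (hρ.equiv.symm h1)
        exact hi₀ (r.inj this)
      have h3 : addOrderOf ω₀ = p := addOrderOf_eq_prime (by rw [nsmul_eq_mul, mul_comm]; exact h2) h0
      have h4 : addOrderOf w = p := addOrderOf_eq_prime (by rw [nsmul_eq_mul, mul_comm]; exact hw) hw0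
      exact Or.inl (hρ.equiv.trans h1 (rel_of_order hρ hrat (h3.trans h4.symm)))
  intro t ω hω ht
  by_cases hpt : t * (p : ZMod m) = 0
  · have he : ∃ ω, ρ (r i₀) (r ω) ∧ ω * (p : ZMod m) = 0 := by
      rcases ht with h | ⟨he, _⟩
      · exact ⟨t, h, hpt⟩
      · exact he
    refine hall he _ ?_
    rw [add_mul, hpt, mem_Om.mp hω, add_zero]
  · rcases ht with h | ⟨_, h⟩
    · exact Or.inl (hclaim t h hpt ω hω)
    · have : t = 0 := r.inj h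
      exact absurd (by rw [this, zero_mul]) hpt

theorem not_all_rot (hm : 2 ≤ m) (hρ : IsSR ρ) (hp : Prim ρ) (hn : ¬ Triv ρ) (i₀ : ZMod m) (p : ℕ) :
    ¬ ∀ i, r i ∈ YY ρ i₀ p := by
  intro hall
  have hb : ∀ i, i ≠ 0 → ρ (r i₀) (r i) := by
    intro i hi
    rcases hall i with h | ⟨_, h⟩
    · exact h
    · exact absurd (r.inj h) hi
  have hb' : ∀ x : DihedralGroup m, x ≠ 1 → ρ (r i₀) x := by
    intro x hx
    rcases x with i | j
    · exact hb i (by rintro rfl; exact hx rfl)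
    · obtain ⟨i, hi, hij⟩ := rot_of_refl hm hρ hp j
      exact hρ.equiv.trans (hb i hi) (hρ.equiv.symm hij)
  exact hn fun x y hx hy => hρ.equiv.trans (hρ.equiv.symm (hb' x hx)) (hb' y hy)

theorem not_all_refl (hρ : IsSR ρ) (hp : Prim ρ) (hn : ¬ Triv ρ) (i₀ : ZMod m) (p : ℕ) :
    ¬ ∀ j, sr j ∈ YY ρ i₀ p := by
  intro hall
  have hb : ∀ j, ρ (r i₀) (sr j) := by
    intro j
    rcases hall j with h | ⟨_, h⟩
    · exact h
    · cases (h : sr j = r 0)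
  have hb' : ∀ x : DihedralGroup m, x ≠ 1 → ρ (r i₀) x := by
    intro x hx
    rcases x with i | j
    · obtain ⟨j, hj⟩ := refl_of_rot hρ hp (i := i) (by rintro rfl; exact hx rfl)
      exact hρ.equiv.trans (hb j) (hρ.equiv.symm hj)
    · exact hb j
  exact hn fun x y hx hy => hρ.equiv.trans (hρ.equiv.symm (hb' x hx)) (hb' y hy)

/-- Reduction to excluding the configuration. -/
theorem final_of (hm : 2 ≤ m) (hρ : IsSR ρ) (hp : Prim ρ) (hn : ¬ Triv ρ) {i₀ : ZMod m}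
    (hi₀ : i₀ ≠ 0) {p : ℕ} (hpp : p.Prime) (hpm : p ∣ m)
    (hrat : ∀ (k : (ZMod m)ˣ) i, ρ (r ((k : ZMod m) * i)) (r i))
    (hclaim : ∀ t, ρ (r i₀) (r t) → t * (p : ZMod m) ≠ 0 →
      ∀ ω ∈ (Om p : Finset (ZMod m)), ρ (r i₀) (r (t + ω)))
    (hcfg : ∀ c, Arith.Cfg (fU (YY ρ i₀ p)) (fV (YY ρ i₀ p)) c → False) :
    ∃ ρ' : DihedralGroup m → DihedralGroup m → Prop, IsSR ρ' ∧ (∀ x y, ρ x y → ρ' x y) ∧
      (∃ x y, ρ' x y ∧ ¬ ρ x y) ∧ ¬ Triv ρ' := by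
  have hΩ : (Om p : Finset (ZMod m)).card = p := card_Om hpp hpm
  obtain ⟨ω₀, hω₀, hω₀0⟩ : ∃ ω₀ ∈ (Om p : Finset (ZMod m)), ω₀ ≠ 0 :=
    Finset.exists_mem_ne (by rw [hΩ]; exact hpp.one_lt) 0
  refine coarsen_of_per hρ hp (Ω := ((Om p : Finset (ZMod m)) : Set (ZMod m)))
    (YY_sat hρ i₀ p) (YY_per hρ hi₀ hpp hrat hclaim) ?_ ?_ ?_ hω₀ hω₀0 hcfg
  · intro ω hω
    have hω' : ω ∈ (Om p : Finset (ZMod m)) := hω
    show -ω ∈ (Om p : Finset (ZMod m))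
    rw [mem_Om] at hω' ⊢
    rw [neg_mul, hω', neg_zero]
  · intro h
    have : r i₀ ∈ YY ρ i₀ p := Or.inl (hρ.equiv.refl _)
    rw [h] at this
    exact this
  · intro h
    exact not_all_rot hm hρ hp hn i₀ p fun i => by rw [h]; trivial

theorem period_fU {Y : Set (DihedralGroup m)} {Ω : Finset (ZMod m)}
    (hiff : ∀ t, ∀ ω ∈ Ω, r (t + ω) ∈ Y ↔ r t ∈ Y) : ∀ ω ∈ Ω, ∀ t, fU Y (t + ω) = fU Y t := by
  classical
  intro ω hω t
  simp only [fU, hiff t ω hω]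

theorem iff_of_per {Y : Set (DihedralGroup m)} {p : ℕ}
    (hper : ∀ t, ∀ ω ∈ (Om p : Finset (ZMod m)), r t ∈ Y → r (t + ω) ∈ Y) :
    ∀ t, ∀ ω ∈ (Om p : Finset (ZMod m)), r (t + ω) ∈ Y ↔ r t ∈ Y := by
  intro t ω hω
  refine ⟨fun h => ?_, hper t ω hω⟩
  have hneg : -ω ∈ (Om p : Finset (ZMod m)) := by
    rw [mem_Om] at hω ⊢
    rw [neg_mul, hω, neg_zero]
  have := hper _ _ hneg h
  simpa using this

/-- The configuration is impossible for an odd prime. -/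
theorem no_cfg_odd (hm : 2 ≤ m) (hρ : IsSR ρ) (hp : Prim ρ) (hn : ¬ Triv ρ) {i₀ : ZMod m}
    {p : ℕ} (hpp : p.Prime) (hodd : Odd p) (hpm : p ∣ m)
    (hper : ∀ t, ∀ ω ∈ (Om p : Finset (ZMod m)), r t ∈ YY ρ i₀ p → r (t + ω) ∈ YY ρ i₀ p)
    (c : ℚ) (cfg : Arith.Cfg (fU (YY ρ i₀ p)) (fV (YY ρ i₀ p)) c) : False := by
  classical
  haveI : Fact p.Prime := ⟨hpp⟩
  have hΩ : (Om p : Finset (ZMod m)).card = p := card_Om hpp hpm
  have hp3 : 3 ≤ p := by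
    rcases hodd with ⟨k, hk⟩
    have := hpp.two_le
    omega
  have hY := YY_sat hρ i₀ p
  refine cfg.caseA hp3 hΩ (period_fU (iff_of_per hper)) (sum_fU _) (sum_fV _) ?_
    (dvd_card_Y hm hρ hp hodd hΩ hY hper) ?_ ?_
  · refine dvd_card_of_per hΩ ?_
    intro t ht ω hω
    rw [mem_filter] at ht ⊢
    exact ⟨mem_univ _, hper t ω hω ht.2⟩
  · exact Finset.card_pos.mpr ⟨i₀, by
      rw [mem_filter]
      exact ⟨mem_univ _, Or.inl (hρ.equiv.refl _)⟩⟩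
  · exact card_lt_of_not_all (not_all_rot hm hρ hp hn i₀ p)

/-- In the group `ZMod (2 ^ a)`, elements outside the even ones have full order. -/
theorem order_of_not_even {a : ℕ} (hma : m = 2 ^ a) {i : ZMod m}
    (hi : i ∉ (AddMonoidHom.mulRight ((2 : ℕ) : ZMod m)).range) : addOrderOf i = m := by
  have hm0 : m ≠ 0 := NeZero.ne m
  have h1 : ¬ 2 ∣ i.val := by
    rintro ⟨k, hk⟩
    apply hi
    refine ⟨(k : ZMod m), ?_⟩
    show (k : ZMod m) * ((2 : ℕ) : ZMod m) = i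
    rw [← Nat.cast_mul, mul_comm, ← hk, ZMod.natCast_zmod_val]
  have h2 : Nat.Coprime (2 ^ a) i.val :=
    Nat.Coprime.pow_left a ((Nat.Prime.coprime_iff_not_dvd Nat.prime_two).mpr h1)
  rw [← hma] at h2
  have h3 := ZMod.addOrderOf_coe i.val hm0
  rw [ZMod.natCast_zmod_val] at h3
  rw [h3, h2.gcd_eq_one, Nat.div_one]

/-- The configuration is impossible for `p = 2`. -/
theorem no_cfg_two (hm : 2 ≤ m) (hρ : IsSR ρ) (hp : Prim ρ) (hn : ¬ Triv ρ) {i₀ : ZMod m}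
    (hi₀ : i₀ ≠ 0)
    (hrat : ∀ (k : (ZMod m)ˣ) i, ρ (r ((k : ZMod m) * i)) (r i))
    (h2d : ∀ q : ℕ, q.Prime → q ∣ Nat.card (HH ρ i₀) → q = 2) (h2m : 2 ∣ m)
    (hper : ∀ t, ∀ ω ∈ (Om 2 : Finset (ZMod m)), r t ∈ YY ρ i₀ 2 → r (t + ω) ∈ YY ρ i₀ 2)
    (c : ℚ) (cfg : Arith.Cfg (fU (YY ρ i₀ 2)) (fV (YY ρ i₀ 2)) c) : False := by
  classical
  have hΩ : (Om 2 : Finset (ZMod m)).card = 2 := card_Om Nat.prime_two h2m
  obtain ⟨z, hz, hz0⟩ : ∃ ω₀ ∈ (Om 2 : Finset (ZMod m)), ω₀ ≠ 0 :=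
    Finset.exists_mem_ne (by rw [hΩ]; norm_num) 0
  have hzz : z + z = 0 := by
    have := mem_Om.mp hz
    rw [← this]
    push_cast
    ring
  set Y := YY ρ i₀ 2 with hYdef
  have hiff := iff_of_per hper
  have hperU := period_fU (iff_of_per hper) z hz
  set S := univ.filter fun s : ZMod m => r s ∈ Y with hS
  set T := univ.filter fun s : ZMod m => sr s ∈ Y with hT
  have hSper : ∀ t ∈ S, ∀ ω ∈ (Om 2 : Finset (ZMod m)), t + ω ∈ S := by
    intro t ht ω hω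
    rw [hS, mem_filter] at ht ⊢
    exact ⟨mem_univ _, hper t ω hω ht.2⟩
  have h2S : 2 ∣ S.card := dvd_card_of_per hΩ hSper
  have hSpos : 0 < S.card := Finset.card_pos.mpr ⟨i₀, by
    rw [hS, mem_filter]
    exact ⟨mem_univ _, Or.inl (hρ.equiv.refl _)⟩⟩
  have hTpos : 0 < T.card := by
    obtain ⟨j, hj⟩ := refl_of_rot hρ hp hi₀
    exact Finset.card_pos.mpr ⟨j, by
      rw [hT, mem_filter]
      exact ⟨mem_univ _, Or.inl hj⟩⟩
  have hSlt : S.card < m := card_lt_of_not_all (not_all_rot hm hρ hp hn i₀ 2)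
  have hTlt : T.card < m := card_lt_of_not_all (not_all_refl hρ hp hn i₀ 2)
  by_cases hH : HH ρ i₀ = ⊤
  · -- all odd elements lie in the class
    have hcard : Nat.card (HH ρ i₀) = m := by
      rw [hH, Nat.card_congr AddSubgroup.topEquiv.toEquiv, Nat.card_zmod]
    rw [hcard] at h2d
    have hma := Nat.eq_prime_pow_of_unique_prime_dvd (NeZero.ne m) (fun {d} hd hdd => h2d d hd hdd)
    set L := (AddMonoidHom.mulRight ((2 : ℕ) : ZMod m)).range with hL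
    have hLtop : L ≠ ⊤ := by
      intro htop
      have hsurj : Function.Surjective (AddMonoidHom.mulRight ((2 : ℕ) : ZMod m)) :=
        AddMonoidHom.range_eq_top.mp htop
      have hinj := Finite.injective_iff_surjective.mpr hsurj
      apply hz0
      apply hinj
      show z * ((2 : ℕ) : ZMod m) = 0 * ((2 : ℕ) : ZMod m)
      rw [zero_mul]
      exact mem_Om.mp hz
    obtain ⟨t₀, ht₀, ht₀L⟩ : ∃ t₀, ρ (r i₀) (r t₀) ∧ t₀ ∉ L := by
      by_contra hno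
      push Not at hno
      have : HH ρ i₀ ≤ L := by
        rw [HH, AddSubgroup.closure_le]
        exact fun t ht => hno t ht
      rw [hH] at this
      exact hLtop (top_le_iff.mp this)
    have ho₀ := order_of_not_even hma ht₀L
    have hsupp : ∀ i, (fun i => 1 - fU Y i) i ≠ 0 → i ∈ L := by
      intro i hi
      by_contra hiL
      apply hi
      have hoi := order_of_not_even hma hiL
      have hmem : r i ∈ Y :=
        Or.inl (hρ.equiv.trans ht₀ (rel_of_order hρ hrat (ho₀.trans hoi.symm)))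
      simp [fU, hmem]
    have hsumU : ∑ i, (1 - fU Y i) = ((m - S.card : ℕ) : ℚ) := by
      rw [Finset.sum_sub_distrib, sum_fU, Finset.sum_const, Finset.card_univ, ZMod.card,
        Nat.cast_sub hSlt.le]
      simp
      rw [hS]
    have hsumV : ∑ i, (1 - fV Y i) = ((m - T.card : ℕ) : ℚ) := by
      rw [Finset.sum_sub_distrib, sum_fV, Finset.sum_const, Finset.card_univ, ZMod.card,
        Nat.cast_sub hTlt.le]
      simp
      rw [hT]
    refine cfg.compl.caseB L hLtop hsupp hsumU hsumV (by omega) (by omega)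
      (Nat.dvd_sub h2m h2S) hz0 hzz ?_
    intro t
    simp only [hperU t]
  · refine cfg.caseB (HH ρ i₀) hH ?_ (sum_fU _) (sum_fV _) hSpos hTpos h2S hz0 hzz hperU
    intro i hi
    have hmem : r i ∈ Y := by
      by_contra hno
      apply hi
      simp [fU, hno]
    rcases hmem with h | ⟨_, h⟩
    · exact mem_HH h
    · have : i = 0 := r.inj h
      rw [this]
      exact AddSubgroup.zero_mem _

/-- The step in the rational case. -/
theorem rational_step (hm : 2 ≤ m) (hρ : IsSR ρ) (hp : Prim ρ) (hn : ¬ Triv ρ)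
    (hrat : ∀ (k : (ZMod m)ˣ) i, ρ (r ((k : ZMod m) * i)) (r i)) :
    ∃ ρ' : DihedralGroup m → DihedralGroup m → Prop, IsSR ρ' ∧ (∀ x y, ρ x y → ρ' x y) ∧
      (∃ x y, ρ' x y ∧ ¬ ρ x y) ∧ ¬ Triv ρ' := by
  classical
  haveI : Fact (1 < m) := ⟨hm⟩
  obtain ⟨i₀, hi₀m, hmin₀⟩ := Finset.exists_min_image ((univ : Finset (ZMod m)).erase 0)
    (fun i => Nat.card (HH ρ i)) ⟨1, by simp⟩
  have hi₀ : i₀ ≠ 0 := Finset.ne_of_mem_erase hi₀m
  have hmin : ∀ i, i ≠ 0 → Nat.card (HH ρ i₀) ≤ Nat.card (HH ρ i) := fun i hi =>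
    hmin₀ i (Finset.mem_erase.mpr ⟨hi, mem_univ _⟩)
  have hd1 : Nat.card (HH ρ i₀) ≠ 1 := by
    intro h1
    have h0 : (⟨i₀, mem_HH (hρ.equiv.refl _)⟩ : HH ρ i₀) = ⟨0, AddSubgroup.zero_mem _⟩ :=
      (Nat.card_eq_one_iff_unique.mp h1).1.elim _ _
    exact hi₀ (congrArg Subtype.val h0)
  have hdm : Nat.card (HH ρ i₀) ∣ m := by
    have := AddSubgroup.card_addSubgroup_dvd_card (HH ρ i₀)
    rwa [Nat.card_zmod] at this
  by_cases hq : ∃ q : ℕ, q.Prime ∧ q ∣ Nat.card (HH ρ i₀) ∧ q ≠ 2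
  · obtain ⟨p, hpp, hpd, hp2⟩ := hq
    haveI : Fact p.Prime := ⟨hpp⟩
    have hodd : Odd p := hpp.odd_of_ne_two hp2
    have hpm : p ∣ m := hpd.trans hdm
    have hΩ : (Om p : Finset (ZMod m)).card = p := card_Om hpp hpm
    have hclaim : ∀ t, ρ (r i₀) (r t) → t * (p : ZMod m) ≠ 0 →
        ∀ ω ∈ (Om p : Finset (ZMod m)), ρ (r i₀) (r (t + ω)) :=
      fun t ht hpt ω hω => claim_odd hρ hp hodd hΩ hmin hpd ht hpt hω
    refine final_of hm hρ hp hn hi₀ hpp hpm hrat hclaim ?_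
    exact no_cfg_odd hm hρ hp hn hpp hodd hpm (YY_per hρ hi₀ hpp hrat hclaim)
  · push Not at hq
    have h2d : ∀ q : ℕ, q.Prime → q ∣ Nat.card (HH ρ i₀) → q = 2 := fun q h1 h2 => hq q h1 h2
    obtain ⟨q, hq1, hq2⟩ := Nat.exists_prime_and_dvd hd1
    have h2dvd : 2 ∣ Nat.card (HH ρ i₀) := by
      rw [← h2d q hq1 hq2]
      exact hq2
    have h2m : 2 ∣ m := h2dvd.trans hdm
    have hclaim : ∀ t, ρ (r i₀) (r t) → t * ((2 : ℕ) : ZMod m) ≠ 0 →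
        ∀ ω ∈ (Om 2 : Finset (ZMod m)), ρ (r i₀) (r (t + ω)) :=
      fun t ht hpt ω hω => claim_two hρ hrat h2d ht hpt hω
    refine final_of hm hρ hp hn hi₀ Nat.prime_two h2m hrat hclaim ?_
    exact no_cfg_two hm hρ hp hn hi₀ hrat h2d h2m (YY_per hρ hi₀ Nat.prime_two hrat hclaim)

/-- The coarsening step. -/
theorem main_step (hm : 2 ≤ m) (hρ : IsSR ρ) (hp : Prim ρ) (hn : ¬ Triv ρ) :
    ∃ ρ' : DihedralGroup m → DihedralGroup m → Prop, IsSR ρ' ∧ (∀ x y, ρ x y → ρ' x y) ∧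
      (∃ x y, ρ' x y ∧ ¬ ρ x y) ∧ ¬ Triv ρ' := by
  by_cases hrat : ∀ (k : (ZMod m)ˣ) i, ρ (r ((k : ZMod m) * i)) (r i)
  · exact rational_step hm hρ hp hn hrat
  · push Not at hrat
    obtain ⟨k, i, h⟩ := hrat
    exact ⟨Coarse ρ RatGen, isSR_rat hm hρ hp, fun _ _ h => le_coarse h,
      ⟨_, _, gen_coarse ⟨k, i, rfl, rfl⟩, h⟩, fun ht => hn (triv_of_rat_triv hm hρ hp ht)⟩

/-- **Primitive Schur rings over dihedral groups are trivial.** -/
theorem triv_of_prim (hm : 2 ≤ m) (hρ : IsSR ρ) (hp : Prim ρ) : Triv ρ :=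
  triv_of_step (fun _ hr hp hn => main_step hm hr hp hn) ρ hρ hp

end Cfsg.Agent.Lib.Dih.Main
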