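import Mathlib
import Cfsg.Agent.Lib.Dih.Main
import Cfsg.Agent.Lib.Perm.SchurRing

/-!
# Primitive groups with a regular dihedral subgroup are doubly transitive
-/

namespace Cfsg.Agent.Lib.Dih.Bridge

open Finset DihedralGroup MulAction Cfsg.Agent.Lib.Dih.SR Cfsg.Agent.Lib.Perm.SchurRing

variable {G Ω : Type*} [Group G] [MulAction G Ω]

/-- The relation on `DihedralGroup m` defined by the stabilizer of `o`. -/
def relOf {m : ℕ} (ι : DihedralGroup m →* G) (o : Ω) (x y : DihedralGroup m) : Prop :=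
  ∃ h : G, h • o = o ∧ h • (ι x • o) = ι y • o

theorem hfun_of_sat {m : ℕ} {ι : DihedralGroup m →* G} {o : Ω} {S : Set (DihedralGroup m)}
    (hS : Sat (relOf ι o) S) : HFun ι o (fun x => x ∈ S) := by
  intro h hh x y hxy
  exact propext (hS x y ⟨h, hh, hxy⟩)

theorem isSR_relOf {m : ℕ} [NeZero m] {ι : DihedralGroup m →* G} {o : Ω}
    (hbij : Function.Bijective fun x : DihedralGroup m => ι x • o) : IsSR (relOf ι o) where
  equiv :=
    ⟨fun x => ⟨1, one_smul _ _, one_smul _ _⟩,
      fun {x y} ⟨h, hh, hxy⟩ => ⟨h⁻¹, by rw [inv_smul_eq_iff, hh], by rw [inv_smul_eq_iff, hxy]⟩,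
      fun {x y z} ⟨h, hh, hxy⟩ ⟨k, hk, hyz⟩ =>
        ⟨k * h, by rw [mul_smul, hh, hk], by rw [mul_smul, hxy, hyz]⟩⟩
  one := by
    rintro x ⟨h, hh, hx⟩
    apply hbij.1
    simp only [map_one, one_smul] at hx ⊢
    rw [← hx, hh]
  inv := by
    rintro x y ⟨h, hh, hxy⟩
    refine ⟨(ι y)⁻¹ * h * ι x, ?_, ?_⟩
    · rw [mul_smul, mul_smul, hxy, inv_smul_smul]
    · rw [mul_smul, mul_smul, smul_smul (ι x), ← map_mul, mul_inv_cancel, map_one, one_smul, hh,
        map_inv]
  cnt_inv := by
    classical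
    rintro S T hS hT x y ⟨h, hh, hxy⟩
    simp only [cnt]
    convert card_conv_eq hbij (hfun_of_sat hS) (hfun_of_sat hT) hh hxy

theorem prim_relOf {m : ℕ} [NeZero m] [IsPreprimitive G Ω] {ι : DihedralGroup m →* G} {o : Ω}
    (hbij : Function.Bijective fun x : DihedralGroup m => ι x • o) : Prim (relOf ι o) where
  closure _ hT := closure_eq_bot_or_top hbij (hfun_of_sat hT)
  stable _ hT _ hs hst := eq_empty_or_univ_of_stable hbij (hfun_of_sat hT) hs hst

theorem triv_relOf {m : ℕ} [NeZero m] [IsPreprimitive G Ω] {ι : DihedralGroup m →* G} {o : Ω}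
    (hbij : Function.Bijective fun x : DihedralGroup m => ι x • o) : Triv (relOf ι o) := by
  by_cases hm : 2 ≤ m
  · exact Main.triv_of_prim hm (isSR_relOf hbij) (prim_relOf hbij)
  · have hm1 : m = 1 := by
      have := NeZero.pos m
      omega
    subst hm1
    intro x y hx hy
    rcases x with i | i
    · exact absurd (by rw [Subsingleton.elim i 0]; rfl) hx
    · rcases y with j | j
      · exact absurd (by rw [Subsingleton.elim j 0]; rfl) hy
      · rw [Subsingleton.elim i j]
        exact (isSR_relOf hbij).equiv.refl _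

/-- The main theorem. -/
theorem two_transitive [Finite G] [FaithfulSMul G Ω]
    (hprim : IsPreprimitive G Ω) (D : Subgroup G) (m : ℕ)
    (hD : Nonempty (↥D ≃* DihedralGroup m))
    (hDreg : IsPretransitive ↥D Ω ∧ ∀ a : Ω, stabilizer ↥D a = ⊥) :
    IsMultiplyPretransitive G Ω 2 := by
  obtain ⟨e⟩ := hD
  obtain ⟨hDt, hDs⟩ := hDreg
  haveI hfin : Finite (DihedralGroup m) := Finite.of_equiv _ e.toEquiv
  haveI : NeZero m := by
    constructor
    rintro rfl
    exact not_finite (DihedralGroup 0)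
  have hne : Nonempty Ω := by
    by_contra h
    rw [not_nonempty_iff] at h
    have hsub : Subsingleton G := ⟨fun a b => FaithfulSMul.eq_of_smul_eq_smul (α := Ω)
      (fun w => (h.false w).elim)⟩
    have h1 : e.symm (r 0) = e.symm (sr 0) := Subtype.ext (hsub.elim _ _)
    have h2 := e.symm.injective h1
    cases h2
  obtain ⟨o⟩ := hne
  let ι : DihedralGroup m →* G := D.subtype.comp e.symm.toMonoidHom
  have hbij : Function.Bijective fun x : DihedralGroup m => ι x • o := by
    constructor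
    · intro x y hxy
      have h1 : e.symm x • o = e.symm y • o := hxy
      have h3 : (e.symm y)⁻¹ * e.symm x ∈ stabilizer D o := by
        rw [mem_stabilizer_iff, mul_smul, h1, inv_smul_smul]
      rw [hDs o, Subgroup.mem_bot] at h3
      exact e.symm.injective (inv_mul_eq_one.mp h3).symm
    · intro w
      obtain ⟨x, hx⟩ := exists_smul_eq D o w
      refine ⟨e x, ?_⟩
      have : e.symm (e x) • o = w := by rw [e.symm_apply_apply]; exact hx
      exact this
  have ht := triv_relOf hbij
  haveI : IsPretransitive G Ω := hprim.toIsPretransitive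
  refine Cfsg.Agent.Lib.Perm.Basic.isTwoPretransitive_of_stabilizer o ?_
  intro b c hb hc
  obtain ⟨x, rfl⟩ := hbij.2 b
  obtain ⟨y, rfl⟩ := hbij.2 c
  have hx : x ≠ 1 := by
    rintro rfl
    apply hb
    simp
  have hy : y ≠ 1 := by
    rintro rfl
    apply hc
    simp
  obtain ⟨h, hh, hxy⟩ := ht x y hx hy
  exact ⟨h, hh, hxy⟩

end Cfsg.Agent.Lib.Dih.Bridge
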